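/-
P20: coprime action with nilpotent invariant subgroups.  Interface (see plans/P20.md).
-/
import Cfsg.Agent.P19.Main

set_option autoImplicit false
set_option linter.unusedSectionVars false

namespace Cfsg.Agent.P20

open Subgroup Cfsg Cfsg.Agent Cfsg.Agent.FT Cfsg.Agent.P19
open Cfsg.Agent.H7.SC (oz jj Red)
open scoped commutatorElement

universe u

variable {X : Type u} [Group X] [Finite X]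

/-- The subgroup generated by the squares. -/
def sqs (P : Subgroup X) : Subgroup X := closure {x | ∃ p ∈ P, x = p * p}

/-- Uniqueness: `T` contains the normalizer in `G` of each of its nontrivial `B`-invariant subgroups. -/
structure Uq (G T B : Subgroup X) : Prop where
  nrm : G.Normal
  two : IsPGroup 2 T
  TG : T ≤ G
  Bn : B ≤ 𝐍(T)
  odd : Odd 𝐨(B)
  U : ∀ K ≤ T, K ≠ ⊥ → B ≤ 𝐍(K) → G ⊓ 𝐍(K) ≤ T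

/-- The local configuration: `P = C_T(y)`, `R = N_T(J(P))`, `z = [y, a]`. -/
structure Lc (G T B A : Subgroup X) (y a b : X) : Prop extends E2 T A y a b where
  uq : Uq G T B
  bb : b * b = 1
  bG : b ∈ G

/-- Case I. -/
def CaseI (T : Subgroup X) (y a : X) : Prop :=
  ∃ v ∈ T ⊓ 𝐍(jj (T ⊓ 𝐂[y])), v ∉ 𝐂[y] ∧ ∀ p ∈ T ⊓ 𝐂[y], ⁅v, p⁆ = 1 ∨ ⁅v, p⁆ = ⁅y, a⁆

/-- Case II: `|T : P| = 2`, `y = z ^ b`. -/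
structure L2 (G T B A P : Subgroup X) (z a b : X) : Prop where
  uq : Uq G T B
  PT : P ≤ T
  idx : P.relIndex T = 2
  hA : A ∈ H5.elemMax 2 T
  ha : a ∈ A
  aP : a ∉ P
  zP : z ∈ P
  zc : T ≤ 𝐂[z]
  zz : z * z = 1
  z1 : z ≠ 1
  bG : b ∈ G
  bn : b ∈ 𝐍(P)
  bb : b * b = 1
  ya : a * (b * z * b⁻¹) * a⁻¹ = b * z * b⁻¹ * z
  fx : ∀ β ∈ B, β * z * β⁻¹ = z → β ∈ 𝐍(P)
  mv : ∀ β ∈ B, β * z * β⁻¹ ≠ z → β * z * β⁻¹ ∈ 𝐂[b]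

/-- The hypothesis of the invariance lemma: `P = C_S(y)`. -/
structure DC (S B : Subgroup X) (y z : X) : Prop where
  two : IsPGroup 2 S
  Bn : B ≤ 𝐍(S)
  odd : Odd 𝐨(B)
  zS : z ∈ S
  zc : S ⊔ B ≤ 𝐂[z]
  zz : z * z = 1
  yS : y ∈ S
  yy : y * y = 1
  tv : ∀ n ∈ S ⊓ 𝐍(S ⊓ 𝐂[y]), n * y * n⁻¹ = y ∨ n * y * n⁻¹ = y * z
  nz : z ∉ sqs (S ⊓ 𝐂[y])

/-- Chapter D1: commuting conjugates have the same centralizer. -/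
def D1Stmt : Prop := ∀ (X : Type u) [Group X] [Finite X] (S B : Subgroup X) (y z : X),
  DC S B y z → ∀ γ ∈ S ⊔ B, γ * y * γ⁻¹ ∈ 𝐂[y] → γ ∈ 𝐍(S ⊓ 𝐂[y])

/-- Chapter D2a. -/
def D2aStmt : Prop := ∀ (X : Type u) [Group X] [Finite X] (S B : Subgroup X) (y z : X),
  DC S B y z → B ≤ 𝐍(S ⊓ 𝐍(S ⊓ 𝐂[y])) → B ≤ 𝐍(S ⊓ 𝐂[y])

/-- Chapter D2b: the next step up. -/
def D2bStmt : Prop := ∀ (X : Type u) [Group X] [Finite X] (S B : Subgroup X) (y z : X),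
  DC S B y z → B ≤ 𝐍(S ⊓ 𝐍(S ⊓ 𝐂[y])) ∨ ∃ u ∈ S ⊓ 𝐍(S ⊓ 𝐂[y]), u ∉ 𝐂[y] ∧ u * u = z ∧
    (∀ γ ∈ S ⊔ B, γ * u * γ⁻¹ = u ∨ γ * u * γ⁻¹ = u * z) ∧
    ∀ n ∈ S ⊓ 𝐍(S ⊓ 𝐍(S ⊓ 𝐂[y])), ∃ c ∈ zpowers z,
      n * y * n⁻¹ = y * c ∨ n * y * n⁻¹ = y * u * c

/-- The invariance lemma. -/
def DIStmt : Prop := ∀ (X : Type u) [Group X] [Finite X] (S B : Subgroup X) (y z : X),
  DC S B y z → ∃ s ∈ S, B ≤ 𝐍((S ⊓ 𝐂[y]) ^ᵍ s)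

/-- Chapter C1. -/
def C1Stmt : Prop := ∀ (X : Type u) [Group X] [Finite X] (G T B A : Subgroup X) (y a b : X),
  Lc G T B A y a b → CaseI T y a → False

/-- Chapter C2. -/
def C2Stmt : Prop := ∀ (X : Type u) [Group X] [Finite X] (G T B A : Subgroup X) (y a b : X),
  Lc G T B A y a b → ¬ CaseI T y a → L2 G T B A (T ⊓ 𝐂[y]) ⁅y, a⁆ a (b * a * b⁻¹)

/-- The final count. -/
def CntStmt : Prop := ∀ (X : Type u) [Group X] [Finite X] (P A : Subgroup X)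
    (a y z ζ η w s : X), A ≤ 𝐍(P) → A ∈ H5.elemMax 2 (P ⊔ A) → P.relIndex A = 2 → a ∈ A → a ∉ P →
  y ∈ P ⊓ 𝐂(P) → y * y = 1 → a * y * a⁻¹ = y * z → z ≠ 1 →
  ζ ∈ P ⊓ 𝐂(P) ⊓ 𝐂[a] → ζ * ζ = 1 → ζ ≠ 1 → η ∈ P ⊓ 𝐂(P) ⊓ 𝐂[a] → η * η = 1 → η ≠ 1 → η ≠ ζ →
  w ∈ P → w * w = 1 → s ∈ P → s * s = 1 →
  (∀ q ∈ P, q ∉ 𝐂[s] → ⁅s, q⁆ = ζ ∧ (⁅w, q⁆ = η ∨ ⁅w, q⁆ = η * y)) →
  (∀ q ∈ P, q ∈ 𝐂[s] → ⁅w, q⁆ = 1 ∨ ⁅w, q⁆ = y) → (∃ q ∈ P, q ∈ 𝐂[s] ∧ ⁅w, q⁆ = y) →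
  w ∈ 𝐂[s] → a * w * a⁻¹ ∈ 𝐂[s] → a * s * a⁻¹ ∈ 𝐂[s] → False

/-- Chapter C3. -/
def C3Stmt : Prop := ∀ (X : Type u) [Group X] [Finite X] (G T B A P : Subgroup X) (z a b : X),
  L2 G T B A P z a b → False

/-- The local theorem. -/
def CoreStmt : Prop := ∀ (X : Type u) [Group X] [Finite X] (G T B : Subgroup X), Uq G T B →
  G ⊔ B = ⊤ → IsSyl 2 T ⊤ → WC T

/-- Chapter R1. -/
def R1Stmt : Prop := ∀ (X : Type u) [Group X] [Finite X] (G B : Subgroup X), G.Normal →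
  G ⊔ B = ⊤ → 𝐨(B).Coprime 𝐨(G) → 2 ∣ 𝐨(G) →
  (∀ N : Subgroup X, N.Normal → N ≤ G → N = ⊥ ∨ N = G) →
  (∀ E < G, B ≤ 𝐍(E) → 2 ∣ 𝐨(E) → IsPGroup 2 E) → Group.IsSolvable G

/-- The theorem, internal form. -/
def IntStmt : Prop := ∀ (X : Type u) [Group X] [Finite X] (G B : Subgroup X), G.Normal →
  G ⊔ B = ⊤ → 𝐨(B).Coprime 𝐨(G) → ∀ p : ℕ, p.Prime → p ∣ 𝐨(G) →
  (∀ E < G, B ≤ 𝐍(E) → p ∣ 𝐨(E) → Group.IsNilpotent E) → Group.IsSolvable G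

end Cfsg.Agent.P20
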