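/-
P20, chapter C2: Case II.
-/
import Cfsg.Agent.P20.Defs
import Cfsg.Agent.P6.SE

set_option autoImplicit false
set_option linter.unusedSectionVars false
set_option linter.style.haveILetI false

namespace Cfsg.Agent.P20

open Subgroup Cfsg Cfsg.Agent Cfsg.Agent.FT Cfsg.Agent.P19
open Cfsg.Agent.H7.SC (oz jj)
open Cfsg.Agent.H5 (elemMax)
open scoped commutatorElement

universe u

variable {X : Type u} [Group X] [Finite X]

namespace C2

open EB K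

section E

variable {T A : Subgroup X} {y a b : X} (s : E2 T A y a b)
include s

theorem tv : Tv (rr T y) y ⁅y, a⁆ :=
  ⟨pr s (yP s), s.yy, fun _ h => cm' s h, fun h => s.ay (h (aR s))⟩

theorem cv {v : X} (hv : v ∈ pp T y) (vv : v * v = 1)
    (br : ∀ p ∈ pp T y, ⁅v, p⁆ = 1 ∨ ⁅v, p⁆ = ⁅y, a⁆) : pp T y ≤ 𝐂[v] := by
  by_contra h
  have t := (Tv.mk hv vv br h).conjN s.gn
  exact s.gz (mem_cent1_comm.1 (kcStmt X (pp T y) A (s.hA.1.trans (rn s))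
    (H5.mem_elemMax_of_le (sup_le (pr s) s.hA.1) s.hA le_sup_right) (idxB s s.hA.1 (nA s))
    _ t.vQ t.vv _ t.br t.nc s.ha))

theorem nP : T ⊓ 𝐍(pp T y) ≤ rr T y :=
  inf_le_inf_left T (H5.normalizer_le_normalizer_thompsonSubgroupOf _)

theorem nrm (hI : ¬ CaseI T y a) {c : X} (hc : c ∈ 𝐍(T))
    (t : Tv (rr T y) (c * y * c⁻¹) ⁅y, a⁆) : c ∈ 𝐍(pp T y) := by
  have vP : c * y * c⁻¹ ∈ pp T y := ⟨t.vQ.1, by_contra fun k =>
    hI ⟨_, t.vQ, k, fun p hp => t.br p (pr s hp)⟩⟩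
  have h := cv s vP t.vv fun p hp => t.br p (pr s hp)
  refine inv_mem_iff.1 (mem_norm_of_conj_le (le_conj_iff.1 ?_))
  rw [← (conjE s hc).1]
  exact le_inf inf_le_left h

theorem hS (hI : ¬ CaseI T y a) : T ⊓ 𝐂[⁅y, a⁆] ≤ 𝐍(jj (T ⊓ 𝐂[y])) := by
  by_contra hS
  obtain ⟨c, c1, c2, c3⟩ := H1.exists_mem_normalizer_of_lt (isNilpotent_of_isPGroup Nat.prime_two
    (s.two.to_le (inf_le_left : T ⊓ 𝐂[⁅y, a⁆] ≤ T)))
    (lt_of_le_of_ne (le_inf (inf_le_left : rr T y ≤ T) (rz s))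
      fun e => hS (e.ge.trans inf_le_right))
  have t := (tv s).conjN c2
  rw [mem_cent1_iff_conj.1 c1.2] at t
  exact c3 (nP s ⟨c1.1, nrm s hI (le_norm_self T c1.1) t⟩)

theorem jT (hI : ¬ CaseI T y a) : jj (rr T y) = jj T := by
  have h0 := hS s hI
  have h1 := jx kcStmt s h0
  have rX : rr T y ≤ T ⊓ 𝐍(jj (rr T y)) :=
    le_inf inf_le_left ((le_norm_self _).trans (H5.normalizer_le_normalizer_thompsonSubgroupOf _))
  have h2 : jj (rr T y) = jj (T ⊓ 𝐍(jj (rr T y))) := H5.thompsonSubgroupOf_eq_of_le rX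
    ((le_inf ((jj_le _).trans inf_le_left) h1).trans (le_inf inf_le_left h0))
  have h3 : T ⊓ 𝐍(jj (rr T y)) = T := by
    by_contra k
    refine (lt_inf_norm_of_isNilpotent (isNilpotent_of_isPGroup Nat.prime_two s.two)
      (lt_of_le_of_ne inf_le_left k)).not_ge (inf_le_inf_left _ ?_)
    conv_rhs => rw [h2]
    exact H5.normalizer_le_normalizer_thompsonSubgroupOf _
  rwa [h3] at h2

theorem ort (hI : ¬ CaseI T y a) (bb : b * b = 1) {c : X} (hc : c ∈ 𝐍(T))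
    (h : c * ⁅y, a⁆ * c⁻¹ ≠ ⁅y, a⁆) : c * ⁅y, a⁆ * c⁻¹ ∈ 𝐂[b * a * b⁻¹] := by
  have h1 := (orth kcStmt s hc (by
    rw [jT s hI]; exact H5.normalizer_le_normalizer_thompsonSubgroupOf _ hc)).resolve_left h
  rwa [inv2 bb, ← cent1_conj] at h1

theorem bn : b * a * b⁻¹ ∈ 𝐍(pp T y) :=
  mul_mem (mul_mem s.gn (rn s (aR s))) (inv_mem s.gn)

theorem out (bb : b * b = 1) : b * a * b⁻¹ ∉ T := fun h => by
  have h1 := conj_mem_conj (rz s (nP s ⟨h, bn s⟩)) b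
  rw [← cent1_conj] at h1
  refine s.gz (mem_cent1_comm.1 ?_)
  convert h1 using 1
  calc a = (b * b) * a * (b * b)⁻¹ := by rw [bb]; group
    _ = _ := by group

theorem xa : a * (b * ⁅y, a⁆ * b⁻¹) * a⁻¹ = b * ⁅y, a⁆ * b⁻¹ * ⁅y, a⁆ := by
  have zc : ⁅y, a⁆ ∈ pp T y ⊓ 𝐂(pp T y) := ⟨zP s, mem_cent_iff_cent1.2 ((pr s).trans (rz s))⟩
  have xc := conj_mem_conj zc b
  rw [conj_inf, ← cent_conj, conj_eq_of_mem_norm s.gn] at xc
  have xx := conj_sq (zz s) b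
  have gz := s.gz
  have zd := zd s
  have zy := mem_cent1.1 (zP s).2
  have zi := inv2 (zz s)
  generalize b * ⁅y, a⁆ * b⁻¹ = x at xc xx gz
  generalize ⁅y, a⁆ = z at zd zy zi
  have hF : IsElementaryAbelian 2 (zpowers x ⊔ zpowers y : Subgroup X) :=
    el_adj (elemAb_zpowers (by rw [sq, xx])) s.yy (zpowers_le.2 xc.1.2)
  have o := offender s.hA hF (sup_le (zpowers_le.2 (pr s xc.1)) (zpowers_le.2 (pr s (yP s))))
  have d : 𝐂((zpowers x ⊔ zpowers y : Subgroup X)).relIndex A ∣ 2 := by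
    rw [← idxB s s.hA.1 (nA s)]
    exact relIndex_dvd_of_le_left A (cent_comm.1 (sup_le (zpowers_le.2 xc.2)
      (zpowers_le.2 (mem_cent_iff_cent1.2 inf_le_right))))
  have ca := (le_cent_self s.hA.2.1).trans (cent_le_cent1 s.ha)
  have h1 : A.relIndex (zpowers x ⊔ zpowers y) ≠ 1 := fun k =>
    s.ay (mem_cent1_comm.1 (ca (relIndex_eq_one.1 k (mem_sup_right (mem_zpowers y)))))
  have h2 := L.relIndex_ne_zero A (zpowers x ⊔ zpowers y)
  have h3 := Nat.le_of_dvd two_pos d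
  have h4 := mem_cent1_iff_conj.1 (mem_cent1_comm.1 (ca (idx2 (show A.relIndex
    (zpowers x ⊔ zpowers y) = 2 by omega) (mem_sup_left (mem_zpowers x))
    (mem_sup_right (mem_zpowers y)) (fun k => gz (ca k))
    fun k => s.ay (mem_cent1_comm.1 (ca k)))))
  calc a * x * a⁻¹ = a * (x * y) * a⁻¹ * (y * (a * y * a⁻¹))⁻¹ * y := by group
    _ = x * (y * z) * y := by rw [h4, ← zd, zi]; group
    _ = x * z := by rw [zy, mul_assoc, mul_assoc, s.yy, mul_one]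

end E

theorem zc {G T B A : Subgroup X} {y a b : X} (h : Lc G T B A y a b) (hI : ¬ CaseI T y a) :
    T ≤ 𝐂[⁅y, a⁆] := by
  have s := h.toE2
  have o := fun c hc => ort s hI h.bb (c := c) hc
  have zT := (zP s).1
  have z1 := z1 s
  generalize ⁅y, a⁆ = z at o zT z1
  have key : ∀ t ∈ T, ∃ β ∈ B, β * t * z * (β * t)⁻¹ = z := fun t ht => by
    by_contra! k
    have hN : ∀ β ∈ B, β * t ∈ 𝐍(T) := fun β hβ => mul_mem (h.uq.Bn hβ) (le_norm_self T ht)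
    refine out s h.bb (h.uq.U (closure {x | ∃ β ∈ B, β * t * z * (β * t)⁻¹ = x}) ?_ ?_ ?_
      (mem_inf.2 ⟨mul_mem (mul_mem h.bG (h.uq.TG (aR s).1)) (inv_mem h.bG), cent_le_norm _ ?_⟩))
    · rw [closure_le]
      rintro _ ⟨β, hβ, rfl⟩
      exact (mem_normalizer_iff.1 (hN β hβ) z).1 zT
    · intro e
      have := subset_closure (k := {x | ∃ β ∈ B, β * t * z * (β * t)⁻¹ = x}) ⟨1, one_mem _, rfl⟩
      rw [e] at this
      exact z1 (by simpa using this)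
    · intro c hc
      refine L.mem_normalizer_closure_of_conj_mem ?_
      rintro _ ⟨β, hβ, rfl⟩
      exact ⟨c * β, mul_mem hc hβ, by group⟩
    · refine mem_cent_iff_cent1.2 ?_
      rw [closure_le]
      rintro _ ⟨β, hβ, rfl⟩
      exact o _ (hN β hβ) (k β hβ)
  obtain ⟨_, ⟨β, hβ, rfl⟩, e⟩ := P6.exists_cent_of_not_dvd Nat.prime_two s.two
    (S := {c | ∃ β ∈ B, β * z * β⁻¹ = c}) (by
      rintro t ht _ ⟨β, hβ, rfl⟩
      obtain ⟨γ, hγ, e⟩ := key _ ((mem_normalizer_iff''.1 (h.uq.Bn hβ) t).1 ht)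
      refine ⟨β * γ⁻¹, mul_mem hβ (inv_mem hγ), ?_⟩
      nth_rewrite 1 [← e]
      group) (by
      rw [P6.ncard_class]
      exact fun k => (Nat.not_even_iff_odd.2 h.uq.odd).elim
        (even_iff_two_dvd.2 (k.trans (relIndex_dvd_card _ _))))
  have := mem_cent_iff_cent1.1 e
  rw [cent1_conj, ← conj_eq_of_mem_norm (h.uq.Bn hβ)] at this
  exact conj_le_conj_iff.1 this

end C2

open EB C2 K in
theorem c2Stmt : C2Stmt.{u} := by
  intro X _ _ G T B A y a b h hI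
  have s := h.toE2
  have z := zc h hI
  have e : rr T y = T := le_antisymm inf_le_left (le_inf le_rfl ((le_inf le_rfl z).trans (hS s hI)))
  have xa := xa s
  have az := mem_cent1_iff_conj.1 (rz s (aR s))
  have i : (pp T y).relIndex (rr T y) = 2 := s.idx
  have hA : A ∈ H5.elemMax 2 (rr T y) := s.hA
  rw [e] at i hA
  refine ⟨h.uq, inf_le_left, i, hA, s.ha, aP s, zP s, z, zz s, z1 s,
    mul_mem (mul_mem h.bG (h.uq.TG (aR s).1)) (inv_mem h.bG), bn s, conj_sq (aa s) b, ?_,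
    fun β hβ k => nrm s hI (h.uq.Bn hβ) ?_, fun β hβ => ort s hI h.bb (h.uq.Bn hβ)⟩
  · have bi := inv2 h.bb
    have e1 : b * a * b⁻¹ * ⁅y, a⁆ * (b * a * b⁻¹)⁻¹ = ⁅y, a⁆ * (b * ⁅y, a⁆ * b⁻¹) := by
      calc _ = b * (a * (b⁻¹ * ⁅y, a⁆ * b⁻¹⁻¹) * a⁻¹) * b⁻¹ := by group
        _ = (b * b) * ⁅y, a⁆ * (b * b)⁻¹ * (b * ⁅y, a⁆ * b⁻¹) := by rw [bi, xa]; group
        _ = _ := by rw [h.bb]; group
    rw [e1, ← conj_mul, az, xa, mul_assoc ⁅y, a⁆]
  · have t := (tv s).conjN (g := β) (by rw [e]; exact h.uq.Bn hβ)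
    rwa [k] at t

end Cfsg.Agent.P20
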