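/-
P20, chapter D: basic facts on the configuration `DC`.
-/
import Cfsg.Agent.P20.Defs

set_option autoImplicit false
set_option linter.unusedSectionVars false

namespace Cfsg.Agent.P20

open Subgroup Cfsg Cfsg.Agent Cfsg.Agent.FT Cfsg.Agent.P19

universe u

variable {X : Type u} [Group X] [Finite X]

theorem sq_mem_sqs {P : Subgroup X} {p : X} (h : p ∈ P) : p * p ∈ sqs P := subset_closure ⟨p, h, rfl⟩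

theorem sqs_conj_le (P : Subgroup X) (g : X) : sqs (P ^ᵍ g) ≤ sqs P ^ᵍ g := by
  refine (closure_le _).2 ?_
  rintro _ ⟨p, hp, rfl⟩
  obtain ⟨q, hq, rfl⟩ := mem_conj'.1 hp
  rw [conj_mul]
  exact conj_mem_conj (sq_mem_sqs hq) g

namespace DC

variable {S B : Subgroup X} {y z : X} (c : DC S B y z)
include c

theorem gn : S ⊔ B ≤ 𝐍(S) := sup_le (le_norm_self S) c.Bn

theorem z1 : z ≠ 1 := fun e => c.nz (e ▸ one_mem _)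

theorem fz {γ : X} (h : γ ∈ S ⊔ B) : γ * z * γ⁻¹ = z := mem_cent1_iff_conj.1 (c.zc h)

theorem cS {γ x : X} (h : γ ∈ S ⊔ B) (hx : x ∈ S) : γ * x * γ⁻¹ ∈ S :=
  (mem_normalizer_iff.1 (c.gn h) x).1 hx

theorem cP {γ : X} (h : γ ∈ S ⊔ B) : S ⊓ 𝐂[γ * y * γ⁻¹] = (S ⊓ 𝐂[y]) ^ᵍ γ := by
  rw [conj_inf, conj_eq_of_mem_norm (c.gn h), cent1_conj]

theorem cR {γ : X} (h : γ ∈ S ⊔ B) :
    S ⊓ 𝐍(S ⊓ 𝐂[γ * y * γ⁻¹]) = (S ⊓ 𝐍(S ⊓ 𝐂[y])) ^ᵍ γ := by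
  rw [c.cP h, norm_conj, conj_inf S 𝐍(S ⊓ 𝐂[y]), conj_eq_of_mem_norm (c.gn h)]

theorem conj {γ : X} (h : γ ∈ S ⊔ B) : DC S B (γ * y * γ⁻¹) z := by
  refine ⟨c.two, c.Bn, c.odd, c.zS, c.zc, c.zz, c.cS h c.yS, K.conj_sq c.yy γ, fun n hn => ?_,
    fun r => c.nz ?_⟩
  · rw [c.cR h] at hn
    obtain ⟨m, hm, rfl⟩ := mem_conj'.1 hn
    have e : γ * m * γ⁻¹ * (γ * y * γ⁻¹) * (γ * m * γ⁻¹)⁻¹ = γ * (m * y * m⁻¹) * γ⁻¹ := by group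
    rw [e]
    exact (c.tv m hm).imp (fun r => by rw [r]) fun r => by rw [r, ← conj_mul, c.fz h]
  · rw [c.cP h] at r
    have := sqs_conj_le _ γ r
    rwa [← c.fz h, conj_mem_conj_iff] at this

theorem PR : S ⊓ 𝐂[y] ≤ S ⊓ 𝐍(S ⊓ 𝐂[y]) := le_inf inf_le_left (le_norm_self _)

theorem yR : y ∈ S ⊓ 𝐍(S ⊓ 𝐂[y]) := c.PR (mem_inf.2 ⟨c.yS, self_mem_cent1 y⟩)

theorem NR {γ : X} (h : γ ∈ S ⊔ B) (h' : γ ∈ 𝐍(S ⊓ 𝐂[y])) : γ ∈ 𝐍(S ⊓ 𝐍(S ⊓ 𝐂[y])) := by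
  rw [← conj_eq_self_iff, ← c.cR h, c.cP h, conj_eq_of_mem_norm h']

theorem memR {t : X} (ht : t ∈ S) (h : t * y * t⁻¹ = y * z) : t ∈ S ⊓ 𝐍(S ⊓ 𝐂[y]) := by
  refine mem_inf.2 ⟨ht, inv_mem_iff.1 (mem_norm_of_conj_le (le_conj_iff.1 ?_))⟩
  rw [← c.cP (mem_sup_left ht), h]
  exact fun x hx => mem_inf.2 ⟨hx.1, mem_cent1_comm.1
    (mul_mem (mem_cent1_comm.1 hx.2) (mem_cent1_comm.1 (c.zc (mem_sup_left hx.1))))⟩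

theorem eqz {t : X} (ht : t ∈ S ⊓ 𝐍(S ⊓ 𝐂[y])) (h : t ∉ 𝐂[y]) : t * y * t⁻¹ = y * z :=
  (c.tv t ht).resolve_left fun e => h (mem_cent1_iff_conj.2 e)

theorem mulP {q r : X} (hq : q ∈ S ⊓ 𝐍(S ⊓ 𝐂[y])) (hr : r ∈ S ⊓ 𝐍(S ⊓ 𝐂[y])) (h1 : q ∉ 𝐂[y])
    (h2 : r ∉ 𝐂[y]) : q * r ∈ S ⊓ 𝐂[y] := by
  refine mem_inf.2 ⟨mul_mem hq.1 hr.1, mem_cent1_iff_conj.2 ?_⟩
  calc _ = q * (r * y * r⁻¹) * q⁻¹ := by group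
    _ = _ := by rw [c.eqz hr h2, ← conj_mul, c.eqz hq h1, c.fz (mem_sup_left hq.1), mul_assoc,
      c.zz, mul_one]

end DC

end Cfsg.Agent.P20
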