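/-
P20, chapter C1: Case I.
-/
import Cfsg.Agent.P20.C2
import Cfsg.Agent.P20.D0

set_option autoImplicit false
set_option linter.unusedSectionVars false
set_option linter.style.haveILetI false

namespace Cfsg.Agent.P20

open Subgroup Cfsg Cfsg.Agent Cfsg.Agent.FT Cfsg.Agent.P19
open Cfsg.Agent.H7.SC (oz jj)
open scoped commutatorElement

universe u

variable {X : Type u} [Group X] [Finite X]

namespace C1

open EA EB K

theorem m7 {T P R : Subgroup X} {y z : X} (c : Cfg T P R y z) :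
    ∀ γ ∈ 𝐍(T), γ * z * γ⁻¹ ≠ z → γ * y * γ⁻¹ ∈ 𝐂[y] := by
  obtain ⟨L, ⟨l1, l2, l3⟩, hm⟩ := Set.exists_min_image
    {L : Subgroup X | L ≤ T ∧ 𝐍(T) ≤ 𝐍(L) ∧ ¬ L ≤ P} (fun L => 𝐨(L)) (Set.toFinite _)
    ⟨T, le_rfl, le_rfl, fun h => c.tv.nc (c.RT.trans (h.trans c.Py))⟩
  haveI := c.nil (le_refl T)
  have m1 : ⁅L, T⁆ < L := Agent.L.commutator_lt_of_isNilpotent l1 ((le_norm_self T).trans l2)
    fun e => l3 (e ▸ bot_le)
  have m2 : 𝐍(T) ≤ 𝐍(⁅L, T⁆) := H1.le_normalizer_commutator l2 le_rfl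
  have m3 : ⁅L, T⁆ ≤ P := by_contra fun e =>
    (H1.card_lt_of_lt m1).not_ge (hm _ ⟨m1.le.trans l1, m2, e⟩)
  have m4 : L ≤ R := (le_inf l1 (comm_le_right_iff.1
    ((commutator_mono le_rfl c.PT).trans m3))).trans c.nP
  have m5 : z ∈ ⁅L, T⁆ := by
    obtain ⟨n, hn, e⟩ := not_forall₂.1 l3
    rw [commutator_comm, ← c.tv.eq (m4 hn) fun r => e (c.mem (l1 hn) r)]
    exact commutator_mem_commutator (c.RT c.tv.vQ) hn
  have m6 : ∀ γ ∈ 𝐍(T), γ * z * γ⁻¹ ∈ P := fun γ h => m3 ((mem_normalizer_iff.1 (m2 h) z).1 m5)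
  exact fun γ h => c.dih h (by
    have := conj_mem_conj (mem_cent1_comm.1 (c.Py (m6 _ (inv_mem h)))) γ
    rwa [cent1_conj, conj_inv_conj] at this) (mem_cent1_comm.1 (c.Py (m6 γ h)))

theorem fin {G T B P R : Subgroup X} {y z w h : X} (u : Uq G T B) (c : Cfg T P R y z)
    (hB : B ⊓ 𝐂[z] ≤ 𝐍(P)) (wP : w ∈ P) (wc : P ≤ 𝐂[w]) (w1 : w ≠ 1) (hG : h ∈ G)
    (br : ∀ p ∈ P, ⁅h, p⁆ = 1 ∨ ⁅h, p⁆ = w) : h ∈ T := by
  have yP := c.mem (c.RT c.tv.vQ) (self_mem_cent1 y)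
  have k1 : ∀ β ∈ B, β * y * β⁻¹ ∈ P := fun β hβ => by
    by_cases e : β * z * β⁻¹ = z
    · exact (mem_normalizer_iff.1 (hB (mem_inf.2 ⟨hβ, mem_cent1_iff_conj.2 e⟩)) y).1 yP
    · exact c.mem (c.yc (u.Bn hβ)) (m7 c β (u.Bn hβ) e)
  have mK : ∀ t, t ∈ T ⊓ ⨅ β ∈ B, 𝐂[β * y * β⁻¹] ↔ t ∈ T ∧ ∀ β ∈ B, t ∈ 𝐂[β * y * β⁻¹] :=
    fun t => by simp only [mem_inf, mem_iInf]
  generalize T ⊓ ⨅ β ∈ B, 𝐂[β * y * β⁻¹] = K at mK
  have wK : w ∈ K := (mK w).2 ⟨c.PT wP, fun β hβ => mem_cent1_comm.1 (wc (k1 β hβ))⟩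
  refine u.U K (fun t ht => ((mK t).1 ht).1) (fun e => w1 (mem_bot.1 (e ▸ wK)))
    (fun β hβ => mem_norm_of_conj_le fun x hx => ?_)
    (mem_inf.2 ⟨hG, mem_norm_of_conj_le fun x hx => ?_⟩)
  · obtain ⟨t, ht, rfl⟩ := mem_conj'.1 hx
    refine (mK _).2 ⟨(mem_normalizer_iff.1 (u.Bn hβ) t).1 ((mK t).1 ht).1, fun γ hγ => ?_⟩
    have := conj_mem_conj (((mK t).1 ht).2 _ (mul_mem (inv_mem hβ) hγ)) β
    rwa [← cent1_conj, show β * (β⁻¹ * γ * y * (β⁻¹ * γ)⁻¹) * β⁻¹ = γ * y * γ⁻¹ by group] at this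
  · obtain ⟨t, ht, rfl⟩ := mem_conj'.1 hx
    have tP : t ∈ P := c.mem ((mK t).1 ht).1 (by simpa using ((mK t).1 ht).2 1 (one_mem _))
    rw [show h * t * h⁻¹ = ⁅h, t⁆ * t by group]
    exact mul_mem ((br t tP).elim (fun e => e ▸ one_mem _) fun e => e ▸ wK) ht

theorem der_le (P : Subgroup X) : ⁅P, P⁆ ≤ sqs P := commutator_le.2 fun p hp q hq => by
  rw [show ⁅p, q⁆ = p * p * (p⁻¹ * q * (p⁻¹ * q)) * (q⁻¹ * q⁻¹) by group]
  exact mul_mem (mul_mem (sq_mem_sqs hp) (sq_mem_sqs (mul_mem (inv_mem hp) hq)))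
    (sq_mem_sqs (inv_mem hq))

end C1

open EB C1 K in
theorem c1Stmt (DI : DIStmt.{u}) : C1Stmt.{u} := by
  rintro X _ _ G T B A y a b h ⟨v, vR, vy, br⟩
  have s := h.toE2
  have tv := C2.tv s
  have nP := C2.nP s
  have rz := rz s
  have zP := zP s
  have gz := s.gz
  have gn : b ∈ 𝐍(pp T y) := s.gn
  have av := idx2' s.idx (aR s) vR (aP s) fun k => vy k.2
  change v ∈ rr T y at vR
  change ∀ p ∈ pp T y, _ at br
  generalize ⁅y, a⁆ = z at tv rz zP gz br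
  have Pz := (pr s).trans rz
  have xc := conj_mem_conj (H := pp T y ⊓ 𝐂(pp T y)) ⟨zP, mem_cent_iff_cent1.2 Pz⟩ b
  rw [conj_inf, ← cent_conj, conj_eq_of_mem_norm gn] at xc
  have xv : v ∉ 𝐂[b * z * b⁻¹] := fun k => gz (mem_cent1_comm.1 (inv_mem_iff.1
    ((mul_mem_cancel_right k).1 (mem_cent_iff_cent1.1 xc.2 av))))
  have nz : z ∉ sqs (pp T y) := fun k => by
    have k1 := sqs_conj_le (pp T y) b⁻¹
    rw [conj_eq_of_mem_norm (inv_mem gn)] at k1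
    have k2 := mem_conj.1 (k1 k)
    rw [inv_inv] at k2
    refine xv (mem_cent1_comm.1 ((closure_le _).2 ?_ k2))
    rintro _ ⟨p, hp, rfl⟩
    refine mem_cent1_comm.1 (mem_cent1_iff_conj.2 ?_)
    rw [← conj_mul, show v * p * v⁻¹ = ⁅v, p⁆ * p by group]
    rcases br p hp with e | e
    · rw [e, one_mul]
    · rw [e, mul_assoc, ← mul_assoc p, ← mem_cent1.1 (Pz hp), ← mul_assoc, ← mul_assoc, tv.zz,
        one_mul]
  have eP : T ⊓ 𝐂[z] ⊓ 𝐂[y] = pp T y :=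
    le_antisymm (inf_le_inf_right _ inf_le_left) (le_inf (le_inf inf_le_left Pz) inf_le_right)
  obtain ⟨t, ht, hB⟩ := DI X (T ⊓ 𝐂[z]) (B ⊓ 𝐂[z]) y z ⟨s.two.to_le inf_le_left,
    fun β hβ => by
      rw [← conj_eq_self_iff, conj_inf, conj_eq_of_mem_norm (h.uq.Bn hβ.1), conj_eq_of_mem hβ.2],
    h.uq.odd.of_dvd_nat (FT.card_dvd_of_le inf_le_left), mem_inf.2 ⟨zP.1, self_mem_cent1 z⟩,
    sup_le inf_le_right inf_le_right, tv.zz, mem_inf.2 ⟨s.yT, rz tv.vQ⟩, s.yy, fun n hn => by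
      rw [eP] at hn
      rw [cj s.yy]
      exact (tv.br n (nP (mem_inf.2 ⟨hn.1.1, hn.2⟩))).imp (fun e => by rw [e, mul_one])
        fun e => by rw [e], eP ▸ nz⟩
  rw [eP] at hB
  have tN := le_norm_self T ht.1
  have tz := mem_cent1_iff_conj.1 ht.2
  have eT := conj_eq_of_mem ht.1
  have k := fin (w := t * (b * z * b⁻¹) * t⁻¹) (h := t * (b * v * b⁻¹) * t⁻¹) h.uq
    (⟨s.two, (conjE s tN).1.symm, (conj_mono inf_le_left t).trans eT.le, tz ▸ tv.conj t, by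
      rw [norm_conj, ← eT, ← conj_inf, eT]; exact conj_mono nP t, fun e => nz (by
        have := sqs_conj_le (pp T y) t (der_le (pp T y ^ᵍ t) e)
        rwa [← tz, conj_mem_conj_iff] at this)⟩ : EA.Cfg T (pp T y ^ᵍ t) (rr T y ^ᵍ t) (t * y * t⁻¹) z) hB
    (conj_mem_conj xc.1 t) (by
      rw [cent1_conj]; exact conj_mono (mem_cent_iff_cent1.1 xc.2) t)
    (fun e => tv.ne (by simpa using e))
    (mul_mem (mul_mem (h.uq.TG ht.1) (mul_mem (mul_mem h.bG (h.uq.TG vR.1)) (inv_mem h.bG)))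
      (inv_mem (h.uq.TG ht.1))) fun p hp => by
      rw [← conj_eq_of_mem_norm gn, conj_conj] at hp
      obtain ⟨q, hq, rfl⟩ := mem_conj'.1 hp
      rw [show t * (b * v * b⁻¹) * t⁻¹ = t * b * v * (t * b)⁻¹ by group, br_conj]
      exact (br q hq).imp (fun e => by rw [e]; group) fun e => by rw [e]; group
  rw [← eT, conj_mem_conj_iff] at k
  have k1 := conj_mem_conj (rz (nP (mem_inf.2 ⟨k,
    mul_mem (mul_mem gn (rn s vR)) (inv_mem gn)⟩))) b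
  rw [← cent1_conj, show b * (b * v * b⁻¹) * b⁻¹ = (b * b) * v * (b * b)⁻¹ by group, h.bb] at k1
  exact xv (by simpa using k1)

end Cfsg.Agent.P20
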