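/-
P20, chapter C3: basic facts at one vertex.
-/
import Cfsg.Agent.P20.Defs

set_option autoImplicit false
set_option linter.unusedSectionVars false

namespace Cfsg.Agent.P20

open Subgroup Cfsg Cfsg.Agent Cfsg.Agent.FT Cfsg.Agent.P19 Cfsg.Agent.P19.K
open scoped commutatorElement

universe u

variable {X : Type u} [Group X] [Finite X]

namespace L2

variable {G T B A P : Subgroup X} {z a b : X} (h : L2 G T B A P z a b)
include h

theorem yP : b * z * b⁻¹ ∈ P := (mem_normalizer_iff.1 h.bn z).1 h.zP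

theorem yC : P ≤ 𝐂[b * z * b⁻¹] := by
  rw [cent1_conj, ← conj_eq_of_mem_norm h.bn]
  exact conj_mono (h.PT.trans h.zc) b

theorem yy : b * z * b⁻¹ * (b * z * b⁻¹) = 1 := conj_sq h.zz b

theorem aa : a * a = 1 := el_sq h.hA.2.1 h.ha

theorem aT : a ∈ T := h.hA.1 h.ha

theorem ap {t : X} (ht : t ∈ T) (n : t ∉ P) : a⁻¹ * t ∈ P :=
  (mul2 h.idx (inv_mem h.aT) ht).2 (iff_of_false (fun k => h.aP (inv_mem_iff.1 k)) n)

theorem ybr {t : X} (ht : t ∈ T) (n : t ∉ P) : ⁅b * z * b⁻¹, t⁆ = z := by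
  rw [← mul_inv_cancel_left a t, br_mul, br1.2 (h.yC (h.ap ht n)), mul_one, mul_inv_cancel, mul_one]
  exact mul_left_cancel ((cj h.yy a).symm.trans h.ya)

theorem memP {t : X} (ht : t ∈ T) : t ∈ P ↔ t ∈ 𝐂[b * z * b⁻¹] :=
  ⟨fun k => h.yC k, fun k => by_contra fun n => h.z1 ((h.ybr ht n).symm.trans (br1.2 k))⟩

theorem nrm : T ≤ 𝐍(P) := fun t ht => mem_norm_of_conj_le fun x hx => by
  obtain ⟨q, hq, rfl⟩ := mem_conj'.1 hx
  rw [mul2 h.idx (mul_mem ht (h.PT hq)) (inv_mem ht), mul_mem_cancel_right hq, inv_mem_iff]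

theorem out {t : X} (ht : t ∈ T) (n : t ∉ P) : b * t * b⁻¹ ∉ T := fun k => n <| (h.memP ht).2 <| by
  rw [cent1_conj, mem_conj, inv2 h.bb]
  have := h.zc k
  rwa [inv2 h.bb] at this

theorem bT : b ∉ T := fun k => h.aP <| (h.memP h.aT).2 <| by
  rw [mem_cent1_iff_conj.1 (h.zc k)]
  exact h.zc h.aT

theorem cntA : A ≤ 𝐍(P) ∧ A ∈ H5.elemMax 2 (P ⊔ A) ∧ P.relIndex A = 2 :=
  ⟨h.hA.1.trans h.nrm, ⟨le_sup_right, h.hA.2.1, fun C k => h.hA.2.2 C (k.trans (sup_le h.PT h.hA.1))⟩,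
    EB.idx_of h.ha h.aP fun t ht => (em (t ∈ P)).imp_right fun n =>
      (mul2 h.idx (h.hA.1 ht) h.aT).2 (iff_of_false n h.aP)⟩

/-- (Z) -/
theorem Z {x : X} (hx : x ∈ P) (xx : x * x = 1) (br : ∀ q ∈ P, ⁅x, q⁆ = 1 ∨ ⁅x, q⁆ = z) :
    P ≤ 𝐂[x] := by
  have k : P ≤ 𝐂[b * x * b⁻¹] := by_contra fun n => h.aP <| (h.memP h.aT).2 <|
    kcStmt X P A h.cntA.1 h.cntA.2.1 h.cntA.2.2 _ ((mem_normalizer_iff.1 h.bn x).1 hx) (conj_sq xx b)
      _ (fun q hq => by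
        obtain ⟨p, hp, rfl⟩ := mem_conj'.1 ((conj_eq_of_mem_norm h.bn).ge hq)
        rw [br_conj]
        rcases br p hp with e | e <;> rw [e] <;> simp) n h.ha
  rwa [cent1_conj, ← conj_eq_of_mem_norm h.bn, conj_le_conj_iff] at k

/-- (T) -/
theorem Tb {x : X} (hx : x ∈ P) (hc : P ≤ 𝐂[x]) (xx : x * x = 1) :
    x ∈ 𝐂[a] ∨ x * (b * z * b⁻¹) ∈ 𝐂[a] := by
  have l : zpowers x ⊔ zpowers (b * z * b⁻¹) ≤ P := sup_le (zpowers_le.2 hx) (zpowers_le.2 h.yP)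
  have o := offender h.hA (el_adj (elemAb_zpowers (by rw [pow_two, xx])) h.yy
    (zpowers_le.2 (h.yC hx))) (l.trans h.PT)
  have o2 := relIndex_le_of_le_left (show P ≤ 𝐂(zpowers x ⊔ zpowers (b * z * b⁻¹)) by
    rw [cent_sup, cent_zpowers, cent_zpowers]; exact le_inf hc h.yC) (L := A)
    (by rw [h.cntA.2.2]; exact two_ne_zero)
  have m := mem_sup_right (S := zpowers x) (mem_zpowers (b * z * b⁻¹))
  have yA : b * z * b⁻¹ ∉ A := fun k => h.aP ((h.memP h.aT).2 (el_comm h.hA.2.1 h.ha k))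
  have o3 : A.relIndex (zpowers x ⊔ zpowers (b * z * b⁻¹)) ≠ 1 := fun e => yA (relIndex_eq_one.1 e m)
  have o4 : A.relIndex (zpowers x ⊔ zpowers (b * z * b⁻¹)) ≠ 0 := index_ne_zero_of_finite
  rw [h.cntA.2.2] at o2
  exact (em (x ∈ A)).imp (fun k => el_comm h.hA.2.1 k h.ha) fun n => el_comm h.hA.2.1
    ((mul2 (by omega) (mem_sup_left (mem_zpowers x)) m).2 (iff_of_false n yA)) h.ha

theorem conj {β : X} (hβ : β ∈ B) :
    L2 G T B (A ^ᵍ β) (P ^ᵍ β) (β * z * β⁻¹) (β * a * β⁻¹) (β * b * β⁻¹) := by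
  have e := conj_eq_of_mem_norm (h.uq.Bn hβ)
  have m : ∀ γ ∈ B, β⁻¹ * γ * β ∈ B := fun γ hγ => mul_mem (mul_mem (inv_mem hβ) hγ) hβ
  have i : ∀ γ : X, γ * (β * z * β⁻¹) * γ⁻¹ = β * (β⁻¹ * γ * β * z * (β⁻¹ * γ * β)⁻¹) * β⁻¹ :=
    fun γ => by group
  refine ⟨h.uq, e ▸ conj_mono h.PT β, ?_, e ▸ em_conj h.hA β, conj_mem_conj h.ha β,
    fun k => h.aP (conj_mem_conj_iff.1 k), conj_mem_conj h.zP β, ?_, conj_sq h.zz β,
    fun k => h.z1 (conj_eq_one_iff.1 k), h.uq.nrm.conj_mem b h.bG β, ?_, conj_sq h.bb β, ?_,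
    fun γ hγ k => ?_, fun γ hγ k => ?_⟩
  · rw [← e, relIndex_conj, h.idx]
  · rw [cent1_conj, ← e]
    exact conj_mono h.zc β
  · rw [norm_conj]
    exact conj_mem_conj h.bn β
  · calc _ = β * (a * (b * z * b⁻¹) * a⁻¹) * β⁻¹ := by group
      _ = _ := by rw [h.ya]; group
  · rw [norm_conj, mem_conj]
    rw [i] at k
    exact h.fx _ (m γ hγ) (by simpa using k)
  · rw [i] at k ⊢
    rw [cent1_conj]
    exact conj_mem_conj (h.mv _ (m γ hγ) fun e => k (by rw [e])) β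

end L2

end Cfsg.Agent.P20
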