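/-
P20, chapter C3: the configuration `L2` does not occur.
-/
import Cfsg.Agent.P20.C3x

set_option autoImplicit false
set_option linter.unusedSectionVars false

namespace Cfsg.Agent.P20

open Subgroup Cfsg Cfsg.Agent Cfsg.Agent.FT Cfsg.Agent.P19 Cfsg.Agent.P19.K
open scoped commutatorElement

universe u

variable {X : Type u} [Group X] [Finite X]

namespace C3

theorem on_mul {z c d : X} (zz : z * z = 1) (hc : c = 1 ∨ c = z) (hd : d = 1 ∨ d = z) :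
    c * d = 1 ∨ c * d = z := by
  rcases hc with rfl | rfl <;> rcases hd with rfl | rfl <;> simp [zz]

theorem on_conj {z c g : X} (hg : g ∈ 𝐂[z]) (hc : c = 1 ∨ c = z) : g * c * g⁻¹ = c := by
  rcases hc with rfl | rfl
  · simp
  · exact mem_cent1_iff_conj.1 hg

theorem mul_br (x y p : X) : ⁅x * y, p⁆ = x * ⁅y, p⁆ * x⁻¹ * ⁅x, p⁆ := by
  simp only [commutatorElement_def]; group

theorem cn {P : Subgroup X} {g q : X} (hg : g ∈ 𝐍(P)) (hq : q ∈ P) : g * q * g⁻¹ ∈ P :=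
  (mem_normalizer_iff.1 hg q).1 hq

theorem br_conj' (g v q : X) : ⁅g * v * g⁻¹, q⁆ = g * ⁅v, g⁻¹ * q * g⁻¹⁻¹⁆ * g⁻¹ := by
  simp only [commutatorElement_def]; group

/-- Transport of `[w, P] ≤ ⟨c⟩`. -/
theorem tr {P : Subgroup X} {w c g : X} (hg : g ∈ 𝐍(P)) (br : ∀ q ∈ P, ⁅w, q⁆ = 1 ∨ ⁅w, q⁆ = c) :
    ∀ q ∈ P, ⁅g * w * g⁻¹, q⁆ = 1 ∨ ⁅g * w * g⁻¹, q⁆ = g * c * g⁻¹ := fun q hq => by
  rw [br_conj']
  rcases br _ (cn (inv_mem hg) hq) with e | e <;> rw [e] <;> simp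

theorem trC {P : Subgroup X} {w g : X} (hg : g ∈ 𝐍(P)) (h : P ≤ 𝐂[w]) : P ≤ 𝐂[g * w * g⁻¹] := by
  rw [cent1_conj, ← conj_eq_of_mem_norm hg]
  exact conj_mono h g

theorem cc {w s : X} (g : X) (h : w ∈ 𝐂[s]) : g * w * g⁻¹ ∈ 𝐂[g * s * g⁻¹] := by
  rw [cent1_conj]
  exact conj_mem_conj h g

/-- The subgroup `⨅ P ^ β`. -/
def qq (B P : Subgroup X) : Subgroup X := ⨅ β : B, P ^ᵍ (β : X)

theorem mem_qq {B P : Subgroup X} {x : X} : x ∈ qq B P ↔ ∀ β ∈ B, x ∈ P ^ᵍ β := by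
  simp only [qq, mem_iInf, Subtype.forall]

theorem qq_le (B P : Subgroup X) : qq B P ≤ P := fun x hx => by
  simpa only [conj_one] using mem_qq.1 hx 1 (one_mem _)

theorem le_norm_qq (B P : Subgroup X) : B ≤ 𝐍(qq B P) := fun γ hγ =>
  mem_norm_of_conj_le fun x hx => mem_qq.2 fun β hβ => by
    have := conj_mono (show qq B P ≤ P ^ᵍ (γ⁻¹ * β) from fun x hx =>
      mem_qq.1 hx _ (mul_mem (inv_mem hγ) hβ)) γ hx
    rwa [conj_conj, mul_inv_cancel_left] at this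

end C3

open C3

namespace L2

section one

variable {G T B A P : Subgroup X} {z a b : X} (h : L2 G T B A P z a b)
include h

theorem ybr' {t : X} (ht : t ∈ T) : ⁅b * z * b⁻¹, t⁆ = 1 ∨ ⁅b * z * b⁻¹, t⁆ = z :=
  (em (t ∈ P)).imp (fun k => br1.2 (h.yC k)) (h.ybr ht)

theorem bz : b * (b * z * b⁻¹) * b⁻¹ = z := by
  calc _ = (b * b) * z * (b * b)⁻¹ := by group
    _ = z := by rw [h.bb]; group

variable {w c : X} (hc : T ≤ 𝐂[c]) (c2 : c * c = 1) (hw : w ∈ P) (ww : w * w = 1)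
  (br : ∀ q ∈ P, ⁅w, q⁆ = 1 ∨ ⁅w, q⁆ = c)
include hc br

theorem s1 {t : X} (ht : t ∈ T) (n : t ∉ P) : ⁅w, t⁆ = ⁅w, a⁆ ∨ ⁅w, t⁆ = ⁅w, a⁆ * c := by
  have e := br_mul w a (a⁻¹ * t)
  have k := br _ (h.ap ht n)
  rw [mul_inv_cancel_left, on_conj (hc h.aT) k] at e
  rcases k with k | k <;> rw [k] at e
  · exact .inl (e.trans (mul_one _))
  · exact .inr e

include hw ww

theorem s2 : ⁅w, a⁆ * ⁅w, a⁆ = ⁅w, a * w * a⁻¹⁆ := by
  simp only [commutatorElement_def, mul_inv_rev, inv_inv, inv2 ww, mul_assoc]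

include c2

theorem s3 : ∀ t ∈ T, ⁅⁅w, a⁆, t⁆ = 1 ∨ ⁅⁅w, a⁆, t⁆ = c := by
  have k1 : ∀ p ∈ P, ⁅⁅w, a⁆, p⁆ = 1 ∨ ⁅⁅w, a⁆, p⁆ = c := fun p hp => by
    have k := tr (h.nrm h.aT) br p hp
    rw [mem_cent1_iff_conj.1 (hc h.aT)] at k
    have e : ⁅w, a⁆ = w * (a * w * a⁻¹) := by
      simp only [commutatorElement_def, inv2 ww, mul_assoc]
    rw [e, mul_br, on_conj (hc (h.PT hw)) k]
    exact on_mul c2 k (br p hp)
  intro t ht
  by_cases n : t ∈ P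
  · exact k1 t n
  have k2 : ⁅⁅w, a⁆, a⁆ = ⁅w, a * w * a⁻¹⁆ := by
    simp only [commutatorElement_def, mul_inv_rev, inv2 ww, inv2 h.aa, mul_assoc]
    rw [← mul_assoc a a, h.aa, one_mul]
  have k := k1 _ (h.ap ht n)
  rw [← mul_inv_cancel_left a t, br_mul, on_conj (hc h.aT) k, k2]
  exact on_mul c2 (br _ (cn (h.nrm h.aT) hw)) k

end one

variable {G T B A P A' P' : Subgroup X} {z a b z' a' b' : X} (h : L2 G T B A P z a b)
  (k : L2 G T B A' P' z' a' b')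
include h

section two
include k

theorem yP' (ne : z ≠ z') : b * z * b⁻¹ ∈ P' := by
  by_contra n
  have e := k.ybr (h.PT h.yP) n
  rw [← commutatorElement_inv, inv_eq_iff_eq_inv, inv2 k.zz] at e
  rcases h.ybr' (k.PT k.yP) with e' | e'
  · exact k.z1 (e.symm.trans e')
  · exact ne (e'.symm.trans e)

end two

theorem yβ {β : X} (hβ : β ∈ B) : β * (b * z * b⁻¹) * β⁻¹ ∈ P := by
  by_cases e : β * z * β⁻¹ = z
  · exact cn (h.fx β hβ e) h.yP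
  · convert (h.conj hβ).yP' h e using 1
    group

theorem zQ {x : X} (hx : x ∈ T) (hc : P ≤ 𝐂[x]) : x ∈ qq B P := mem_qq.2 fun β hβ =>
  ((h.conj hβ).memP hx).2 (mem_cent1_comm.1 (hc (by convert h.yβ hβ using 1; group)))

theorem nQ : G ⊓ 𝐍(qq B P) ≤ T :=
  h.uq.U _ ((qq_le B P).trans h.PT) (fun e => h.z1 (mem_bot.1
    (e ▸ h.zQ (h.PT h.zP) (h.PT.trans h.zc)))) (le_norm_qq B P)

/-- An element `g` of `G` with `[g, P] ≤ Z(P)` lies in `T`. -/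
theorem zn {g : X} (hg : g ∈ G) (hz : ∀ q ∈ P, ⁅g, q⁆ ∈ T ∧ P ≤ 𝐂[⁅g, q⁆]) : g ∈ T :=
  h.nQ ⟨hg, mem_norm_of_conj_le fun x hx => by
    obtain ⟨q, hq, rfl⟩ := mem_conj'.1 hx
    have := hz q (qq_le B P hq)
    simpa only [commutatorElement_def, inv_mul_cancel_right] using mul_mem (h.zQ this.1 this.2) hq⟩

include k

/-- (N) -/
theorem N (hy : b * z * b⁻¹ ∈ P') {w : X} (hw : w ∈ P) (ww : w * w = 1)
    (br : ∀ q ∈ P, ⁅w, q⁆ = 1 ∨ ⁅w, q⁆ = z') : w ∈ P' := by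
  by_contra n
  have wT := h.PT hw
  have uP : ⁅w, a⁆ ∈ P' := by
    rw [commutatorElement_def, mul_assoc, mul_assoc, ← mul_assoc a]
    refine (mul2 k.idx wT (cn (le_norm_self T h.aT) (inv_mem wT))).2 (iff_of_false n fun e => n ?_)
    exact inv_mem_iff.1 ((mem_normalizer_iff.1 (k.nrm h.aT) _).2 e)
  have u3 := h.s3 k.zc k.zz hw ww br
  have u2P := cn k.bn uP
  have u2 : b' * ⁅w, a⁆ * b'⁻¹ ∈ P := by
    refine (h.memP (k.PT u2P)).2 (mem_cent1_comm.1 (br1.1 ?_))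
    refine (tr k.bn (fun q hq => u3 q (k.PT hq)) _ hy).resolve_right fun e => ?_
    rw [← commutatorElement_inv, inv_eq_iff_eq_inv, inv2 k.yy] at e
    rcases h.ybr' (k.PT u2P) with e' | e' <;> rw [e] at e'
    · exact n ((k.memP wT).2 (by rw [e', cent1_one]; trivial))
    · exact n ((k.memP wT).2 (e' ▸ h.zc wT))
  have uu : ⁅w, a⁆ * ⁅w, a⁆ = 1 := by
    refine ((h.s2 k.zc hw ww br).symm ▸ br _ (cn (h.nrm h.aT) hw)).resolve_right fun e => n ?_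
    refine (k.memP wT).2 (mem_cent1_comm.1 (br1.1 ?_))
    have t := br _ u2
    rw [← e, ← conj_mul, br_mul, on_conj (k.zc (h.PT u2)) t]
    rcases t with t | t <;> rw [t]
    · exact mul_one _
    · exact k.zz
  have uC := k.Z uP uu fun q hq => u3 q (k.PT hq)
  have zC := k.PT.trans k.zc
  have key : ∀ q ∈ T, ⁅w, q⁆ ∈ P' ⊓ 𝐂(P') := fun q hq => by
    have m1 : z' ∈ P' ⊓ 𝐂(P') := ⟨k.zP, mem_cent_iff_cent1.2 zC⟩
    have m2 : ⁅w, a⁆ ∈ P' ⊓ 𝐂(P') := ⟨uP, mem_cent_iff_cent1.2 uC⟩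
    by_cases e : q ∈ P
    · rcases br q e with t | t <;> rw [t]
      exacts [one_mem _, m1]
    · rcases h.s1 k.zc br hq e with t | t <;> rw [t]
      exacts [m2, mul_mem m2 m1]
  refine k.out wT n (k.zn (mul_mem (mul_mem k.bG (k.uq.TG wT)) (inv_mem k.bG)) fun q hq => ?_)
  have := key _ (k.PT (cn (inv_mem k.bn) hq))
  rw [br_conj']
  exact ⟨k.PT (cn k.bn this.1), trC k.bn (mem_cent_iff_cent1.1 this.2)⟩

/-- The final configuration. -/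
theorem fin (Cnt : CntStmt.{u}) (ne : z ≠ z') (zb : z ∈ 𝐂[b']) (zb' : z' ∈ 𝐂[b]) {q0 : X}
    (h0 : q0 ∈ P) (k0 : q0 ∈ P') (n0 : q0 ∉ 𝐂[b * (b' * z' * b'⁻¹) * b⁻¹]) : False := by
  have y1 := h.yP' k ne
  have y2 := k.yP' h ne.symm
  have bz' : b * z' * b⁻¹ = z' := mem_cent1_iff_conj.1 (mem_cent1_comm.1 zb')
  have bz : b' * z * b'⁻¹ = z := mem_cent1_iff_conj.1 (mem_cent1_comm.1 zb)
  obtain ⟨w, ew⟩ : ∃ w, w = b * (b' * z' * b'⁻¹) * b⁻¹ := ⟨_, rfl⟩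
  have hw : w ∈ P := ew ▸ cn h.bn y2
  have ww : w * w = 1 := ew ▸ conj_sq k.yy b
  have br : ∀ q ∈ P, ⁅w, q⁆ = 1 ∨ ⁅w, q⁆ = z' := by
    have := tr h.bn fun q hq => k.ybr' (h.PT hq)
    rwa [bz', ← ew] at this
  rw [← ew] at n0
  have wP := h.N k y1 hw ww br
  have e0 : ⁅w, q0⁆ = z' := (br q0 h0).resolve_left fun e => n0 (br1.1 e)
  have uu : ⁅w, a⁆ * ⁅w, a⁆ = 1 := by
    have t := tr h.bn (tr (h.nrm h.aT) br)
    rw [mem_cent1_iff_conj.1 (k.zc h.aT), bz'] at t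
    have t2 := cc b (k.yC (h.N k y1 (cn h.bn (cn (h.nrm h.aT) hw)) (conj_sq (conj_sq ww a) b) t))
    rw [← ew, ← mul_assoc, ← mul_assoc, h.bb, one_mul, mul_assoc, ← mul_inv_rev, h.bb, inv_one,
      mul_one] at t2
    rw [h.s2 k.zc hw ww br, br1.2 t2]
  have uP : ⁅w, a⁆ ∈ P' := by
    rw [commutatorElement_def, mul_assoc, mul_assoc, ← mul_assoc a]
    exact mul_mem wP (cn (k.nrm h.aT) (inv_mem wP))
  have uC := k.Z uP uu fun q hq => h.s3 k.zc k.zz hw ww br q (k.PT hq)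
  have u1 : ¬ (⁅w, a⁆ = 1 ∨ ⁅w, a⁆ = z') := fun e => n0 <| k.Z wP ww (fun q hq => by
    by_cases m : q ∈ P
    · exact br q m
    · rcases h.s1 k.zc br (k.PT hq) m with t | t <;> rw [t]
      exacts [e, on_mul k.zz e (.inr rfl)]) k0
  have u2 : ¬ (⁅w, a⁆ * z = 1 ∨ ⁅w, a⁆ * z = z') := fun e => by
    have wy := mem_cent1.1 (h.yC hw)
    have t := k.Z (mul_mem wP y1) (by
      rw [mul_assoc, ← mul_assoc _ w, wy, mul_assoc, h.yy, mul_one, ww]) (fun q hq => by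
      rw [mul_br, on_conj (h.zc (h.PT hw)) (h.ybr' (k.PT hq))]
      by_cases m : q ∈ P
      · rw [br1.2 (h.yC m), one_mul]
        exact br q m
      · have zu := mem_cent1.1 (h.zc (k.PT uP))
        rw [h.ybr (k.PT hq) m]
        rcases h.s1 k.zc br (k.PT hq) m with t | t <;> rw [t]
        · rwa [zu]
        · rw [← mul_assoc, zu]
          exact on_mul k.zz e (.inr rfl)) k0
    have t2 := mul_mem (mem_cent1_comm.1 t) (inv_mem (mem_cent1_comm.1 (h.yC h0)))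
    rw [mul_inv_cancel_right] at t2
    exact n0 (mem_cent1_comm.1 t2)
  -- the element `x = y ^ (b' a' b')`
  have ys : ∀ q ∈ P', ⁅b' * (b * z * b⁻¹) * b'⁻¹, q⁆ = 1 ∨ ⁅b' * (b * z * b⁻¹) * b'⁻¹, q⁆ = z := by
    have := tr k.bn fun q hq => h.ybr' (k.PT hq)
    rwa [bz] at this
  have sP := cn k.bn y1
  have xb := tr k.bn (tr (k.nrm k.aT) ys)
  rw [mem_cent1_iff_conj.1 (h.zc k.aT), bz] at xb
  have xP := k.N h y2 (cn k.bn (cn (k.nrm k.aT) sP)) (conj_sq (conj_sq (conj_sq h.yy b') a') b') xb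
  have bb : ∀ x : X, b' * (b' * x * b'⁻¹) * b'⁻¹ = x := fun x => by
    calc _ = (b' * b') * x * (b' * b')⁻¹ := by group
      _ = x := by rw [k.bb]; group
  have aa : ∀ x : X, a' * (a' * x * a'⁻¹) * a'⁻¹ = x := fun x => by
    calc _ = (a' * a') * x * (a' * a')⁻¹ := by group
      _ = x := by rw [k.aa]; group
  have wx : a' * (b' * w * b'⁻¹) * a'⁻¹ ∈ 𝐂[b' * (b * z * b⁻¹) * b'⁻¹] := by
    have t : w ∈ 𝐂[b' * (a' * (b' * (b * z * b⁻¹) * b'⁻¹) * a'⁻¹) * b'⁻¹] := by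
      by_contra m
      have t1 := (xb w wP).resolve_left fun e => m (br1.1 e)
      have t2 := (br _ xP).resolve_left fun e => m (mem_cent1_comm.1 (br1.1 e))
      rw [← commutatorElement_inv, t1, inv2 h.zz] at t2
      exact ne t2
    have := cc a' (cc b' t)
    rwa [bb, aa] at this
  have sx : a' * (b' * (b * z * b⁻¹) * b'⁻¹) * a'⁻¹ ∈ 𝐂[b' * (b * z * b⁻¹) * b'⁻¹] := by
    have := cc b' (h.yC xP)
    rwa [bb] at this
  have u'P := cn k.bn uP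
  have u'C := trC k.bn uC
  have uy := mem_cent1.1 (k.yC u'P)
  obtain ⟨η, η1, η2, η3, η4, η5⟩ : ∃ η, η ∈ P' ⊓ 𝐂(P') ⊓ 𝐂[a'] ∧ η * η = 1 ∧ η ≠ 1 ∧ η ≠ z ∧
      ∀ c, c = ⁅w, a⁆ ∨ c = ⁅w, a⁆ * z' →
        b' * c * b'⁻¹ = η ∨ b' * c * b'⁻¹ = η * (b' * z' * b'⁻¹) := by
    rcases k.Tb u'P u'C (conj_sq uu b') with t | t
    · refine ⟨_, ⟨⟨u'P, mem_cent_iff_cent1.2 u'C⟩, t⟩, conj_sq uu b', fun e => u1 (.inl ?_),
        fun e => u2 (.inl ?_), fun c hc => ?_⟩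
      · rw [← bb ⁅w, a⁆, e]; simp
      · rw [← bb ⁅w, a⁆, e, bz, h.zz]
      · rcases hc with rfl | rfl
        exacts [.inl rfl, .inr conj_mul.symm]
    · refine ⟨_, ⟨⟨mul_mem u'P k.yP, mul_mem (mem_cent_iff_cent1.2 u'C)
        (mem_cent_iff_cent1.2 k.yC)⟩, t⟩, ?_, fun e => u1 (.inr ?_), fun e => u2 (.inr ?_),
        fun c hc => ?_⟩
      · rw [mul_assoc, ← mul_assoc (b' * z' * b'⁻¹), uy, mul_assoc _ (b' * z' * b'⁻¹), k.yy, mul_one,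
          conj_sq uu]
      · rw [conj_mul] at e
        have := bb (⁅w, a⁆ * z')
        rw [e] at this
        rw [← inv2 k.zz, ← mul_eq_one_iff_eq_inv, ← this]; simp
      · rw [conj_mul] at e
        have := bb (⁅w, a⁆ * z')
        rw [e, bz] at this
        rw [this, ← mul_assoc, uu, one_mul]
      · rcases hc with rfl | rfl
        · exact .inr (by rw [mul_assoc (b' * _ * _), k.yy, mul_one])
        · exact .inl conj_mul.symm
  have zT := h.PT h.zP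
  have cs : ∀ q ∈ P', q ∈ 𝐂[b' * (b * z * b⁻¹) * b'⁻¹] ↔ b'⁻¹ * q * b'⁻¹⁻¹ ∈ P := fun q hq => by
    rw [h.memP (k.PT (cn (inv_mem k.bn) hq)), cent1_conj, mem_conj, inv_inv]
  refine Cnt X P' A' a' _ z' z η (b' * w * b'⁻¹) (b' * (b * z * b⁻¹) * b'⁻¹) k.cntA.1 k.cntA.2.1
    k.cntA.2.2 k.ha k.aP ⟨k.yP, mem_cent_iff_cent1.2 k.yC⟩ k.yy k.ya k.z1
    ⟨⟨(k.memP zT).2 (mem_cent1_comm.1 (h.zc (k.PT k.yP))), mem_cent_iff_cent1.2 (k.PT.trans h.zc)⟩,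
      mem_cent1_comm.1 (h.zc k.aT)⟩ h.zz h.z1 η1 η2 η3 η4 (cn k.bn wP) (conj_sq ww b') sP
    (conj_sq h.yy b') (fun q hq n => ⟨(ys q hq).resolve_left fun e => n (br1.1 e), ?_⟩)
    (fun q hq m => ?_) ⟨_, cn k.bn k0, cc b' (h.yC h0), by rw [br_conj, e0]⟩ (cc b' (h.yC hw)) wx sx
  · rw [br_conj']
    exact η5 _ (h.s1 k.zc br (k.PT (cn (inv_mem k.bn) hq)) fun e => n ((cs q hq).2 e))
  · rw [br_conj']
    rcases br _ ((cs q hq).1 m) with e | e <;> rw [e] <;> simp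

end L2

theorem c3Stmt (Cnt : CntStmt.{u}) : C3Stmt.{u} := by
  intro X _ _ G T B A P z a b h
  refine h.bT (h.nQ ⟨h.bG, mem_norm_of_conj_le fun x hx => mem_qq.2 fun β hβ => ?_⟩)
  obtain ⟨q, hq, rfl⟩ := mem_conj'.1 hx
  have k := h.conj hβ
  have qP := qq_le B P hq
  by_cases e : β * z * β⁻¹ = z
  · rw [conj_eq_of_mem_norm (h.fx β hβ e)]
    exact cn h.bn qP
  by_contra n
  refine h.fin k Cnt (Ne.symm e) ?_ (h.mv β hβ e) qP (mem_qq.1 hq β hβ) fun m => n ?_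
  · have := k.mv β⁻¹ (inv_mem hβ)
    simp only [mul_assoc, inv_mul_cancel_left, inv_inv, inv_mul_cancel, mul_one] at this e ⊢
    exact this (Ne.symm e)
  · refine (k.memP (h.PT (cn h.bn qP))).2 ?_
    have := cc b m
    rwa [← mul_assoc b (b * _), ← mul_assoc b b, h.bb, one_mul, mul_assoc _ b⁻¹, ← mul_inv_rev, h.bb,
      inv_one, mul_one] at this

end Cfsg.Agent.P20
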