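/-
P20, chapter Cnt: the final count.
-/
import Cfsg.Agent.P20.Defs

set_option autoImplicit false
set_option linter.unusedSectionVars false

namespace Cfsg.Agent.P20

open Subgroup Cfsg Cfsg.Agent Cfsg.Agent.FT Cfsg.Agent.P19 Cfsg.Agent.P19.K
open scoped commutatorElement

universe u

variable {X : Type u} [Group X] [Finite X]

theorem cnt_four {H L : Subgroup X} (hL : IsElementaryAbelian 2 L) (h : H ≤ L) {x y : X}
    (hx : x ∈ L) (hy : y ∈ L) (n1 : x ∉ H) (n2 : y ∉ H) (n3 : x * y ∉ H) : 4 * 𝐨(H) ≤ 𝐨(L) := by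
  have xx := el_sq hL hx
  let M : Subgroup X :=
    { carrier := {g | g ∈ L ∧ (g ∈ H ∨ x * g ∈ H)}
      one_mem' := ⟨one_mem _, .inl (one_mem _)⟩
      mul_mem' := fun {a b} ha hb => ⟨mul_mem ha.1 hb.1, by
        have c := mem_cent1.1 (el_comm hL ha.1 hx)
        rcases ha.2 with a1 | a1 <;> rcases hb.2 with b1 | b1
        · exact .inl (mul_mem a1 b1)
        · refine .inr ?_
          rw [← mul_assoc, c, mul_assoc]
          exact mul_mem a1 b1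
        · exact .inr (mul_assoc x a b ▸ mul_mem a1 b1)
        · refine .inl ?_
          have := mul_mem a1 b1
          rwa [c, mul_assoc, ← mul_assoc x x, xx, one_mul] at this⟩
      inv_mem' := fun {a} ha => by rwa [inv2 (el_sq hL ha.1)] }
  have s1 : 2 * 𝐨(H) ≤ 𝐨(M) :=
    two_le (fun g hg => ⟨h hg, .inl hg⟩) (x := x) ⟨hx, .inr (xx ▸ one_mem _)⟩ n1
  have s2 : 2 * 𝐨(M) ≤ 𝐨(L) := two_le (fun g hg => hg.1) hy fun k => k.2.elim n2 n3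
  omega

omit [Finite X] in
theorem cnt_br {x x' t : X} (xx : x * x = 1) (h : x * x' ∈ 𝐂[t]) : ⁅x, t⁆ = ⁅x', t⁆ := by
  have h1 := mem_cent1.1 h
  simp only [commutatorElement_def]
  calc _ = x * (t * (x * x')) * x'⁻¹ * (x * x)⁻¹ * t⁻¹ := by group
    _ = x * (x * x' * t) * x'⁻¹ * (x * x)⁻¹ * t⁻¹ := by rw [h1]
    _ = (x * x) * (x' * t * x'⁻¹) * (x * x)⁻¹ * t⁻¹ := by group
    _ = _ := by rw [xx]; group

theorem cntStmt : CntStmt.{u} := by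
  intro X _ _ P A a y z ζ η w s hN hA h2 ha aP hy yy ya z1 hζ ζζ ζ1 hη ηη η1 ηζ wP ww sP ss
    out inn ex ws w3s s3s
  have aa := el_sq hA.2.1 ha
  have nP : ∀ q ∈ P, a * q * a⁻¹ ∈ P := fun q hq => (mem_normalizer_iff.1 (hN ha) q).1 hq
  have cc : ∀ x : X, a * (a * x * a⁻¹) * a⁻¹ = x := fun x => by
    calc _ = (a * a) * x * (a * a)⁻¹ := by group
      _ = x := by rw [aa]; group
  have sw : ∀ {x v : X}, a * x * a⁻¹ ∈ 𝐂[v] → x ∈ 𝐂[a * v * a⁻¹] := fun {x v} h => by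
    rw [← cc x, cent1_conj]
    exact conj_mem_conj h a
  have fa : ∀ {t : X}, t ∈ A → a * t * a⁻¹ = t := fun ht =>
    mem_cent1_iff_conj.1 (el_comm hA.2.1 ha ht)
  have cA : ∀ {t v : X}, t ∈ A → t ∈ 𝐂[v] → t ∈ 𝐂[a * v * a⁻¹] := fun ht h =>
    sw ((fa ht).symm ▸ h)
  have bA : ∀ {t : X} (v : X), t ∈ A → ⁅a * v * a⁻¹, t⁆ = a * ⁅v, t⁆ * a⁻¹ := fun v ht => by
    rw [← br_conj, fa ht]
  have yz : y * z ≠ y := fun e => z1 (by simpa using e)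
  have ya' : y ∉ 𝐂[a] := fun h =>
    yz (ya.symm.trans (mem_cent1_iff_conj.1 (mem_cent1_comm.1 h)))
  have y1 : y ≠ 1 := fun e => ya' (e ▸ one_mem _)
  have yP : P ≤ 𝐂[y] := mem_cent_iff_cent1.1 hy.2
  have ηa : a * η * a⁻¹ = η := mem_cent1_iff_conj.1 (mem_cent1_comm.1 hη.2)
  have ηy : η * y ≠ 1 := fun e => ya' (by rw [eq_inv_of_mul_eq_one_right e]; exact inv_mem hη.2)
  have c1 : a * w * a⁻¹ ∈ 𝐂[w] := by
    refine br1.1 ((inn _ (nP w wP) w3s).resolve_right fun e => yz ?_)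
    rw [← ya, ← e, ← br_conj, cc, ← commutatorElement_inv, e, inv2 yy]
  have k0 : 𝐂[w] ⊓ (P ⊓ A) ≤ 𝐂[s] := fun t ht => by
    by_contra n
    rcases (out t ht.2.1 n).2 with e | e <;> rw [br1.2 ht.1] at e
    · exact η1 e.symm
    · exact ηy e.symm
  obtain ⟨E, e1, e2, e3, e4, e5, e6, e7⟩ : ∃ E : Subgroup X, IsElementaryAbelian 2 E ∧ E ≤ P ∧
      𝐂[w] ⊓ (P ⊓ A) ≤ E ∧ w ∈ E ∧ a * w * a⁻¹ ∈ E ∧ s ∈ E ∧ y ∈ E := by
    have l : 𝐂[w] ⊓ (P ⊓ A) ⊔ zpowers w ⊔ zpowers (a * w * a⁻¹) ⊔ zpowers s ≤ P :=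
      sup_le (sup_le (sup_le (inf_le_right.trans inf_le_left) (zpowers_le.2 wP))
        (zpowers_le.2 (nP w wP))) (zpowers_le.2 sP)
    refine ⟨_, el_adj (el_adj (el_adj (el_adj (elemAb_of_le (inf_le_right.trans inf_le_right)
      hA.2.1) ww inf_le_left) (conj_sq ww a) (sup_le (fun t ht => cA ht.2.2 ht.1)
      (zpowers_le.2 (mem_cent1_comm.1 c1)))) ss (sup_le (sup_le k0 (zpowers_le.2 ws))
      (zpowers_le.2 w3s))) yy (l.trans yP), sup_le l (zpowers_le.2 hy.1),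
      ((le_sup_left.trans le_sup_left).trans le_sup_left).trans le_sup_left,
      mem_sup_left (mem_sup_left (mem_sup_left (mem_sup_right (mem_zpowers _)))),
      mem_sup_left (mem_sup_left (mem_sup_right (mem_zpowers _))),
      mem_sup_left (mem_sup_right (mem_zpowers _)), mem_sup_right (mem_zpowers _)⟩
  have s3 := hA.2.2 E (e2.trans le_sup_left) e1
  have s4 := H1.card_inf_mul_relIndex P A
  rw [h2] at s4
  have p : 0 < 𝐨(𝐂[w] ⊓ (P ⊓ A)) := Nat.card_pos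
  have low : ∀ {t : X}, t ∈ A → 𝐂[w] ⊓ (P ⊓ A) ≤ 𝐂[t] := fun ht x hx => el_comm hA.2.1 hx.2.2 ht
  have f1 : ∀ t ∈ P ⊓ A, ∀ θ : X, ⁅w, t⁆ = θ * y → a * θ * a⁻¹ = θ → θ * y ≠ 1 →
      4 * 𝐨(E ⊓ 𝐂[t]) ≤ 𝐨(E) := fun t ht θ e hθ n => by
    have n1 : w ∉ 𝐂[t] := fun h => n (e ▸ br1.2 (mem_cent1_comm.1 h))
    refine cnt_four e1 inf_le_left e4 e5 (fun h => n1 h.2)
      (fun h => n1 (fa ht.2 ▸ sw h.2)) fun h => yz ?_
    have := cnt_br ww h.2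
    rw [bA w ht.2, e, ← conj_mul, hθ, ya] at this
    exact (mul_left_cancel this).symm
  have f2 : ∀ {H : Subgroup X}, y ∈ H → 2 * 𝐨(H ⊓ 𝐂[a]) ≤ 𝐨(H) := fun h =>
    two_le inf_le_left h fun k => ya' k.2
  have yt : ∀ {t : X}, t ∈ P → y ∈ 𝐂[t] := fun ht => mem_cent1_comm.1 (yP ht)
  obtain ⟨q, qP, qs, qy⟩ := ex
  have tw : Tv (P ⊓ 𝐂[s]) w y := ⟨⟨wP, ws⟩, ww, fun q hq => inn q hq.1 hq.2,
    fun h => y1 (qy ▸ br1.2 (h ⟨qP, qs⟩))⟩
  have eq0 : 𝐂[w] ⊓ (𝐂[s] ⊓ (P ⊓ A)) = 𝐂[w] ⊓ (P ⊓ A) :=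
    le_antisymm (inf_le_inf_left _ inf_le_right) (le_inf inf_le_left (le_inf k0 inf_le_right))
  have s6 := H1.card_inf_mul_relIndex 𝐂[w] (𝐂[s] ⊓ (P ⊓ A))
  have s7 := H1.card_inf_mul_relIndex 𝐂[s] (P ⊓ A)
  rw [eq0] at s6
  by_cases h1 : 𝐂[s] ⊓ (P ⊓ A) ≤ 𝐂[w] <;> by_cases h3 : P ⊓ A ≤ 𝐂[s]
  · rw [relIndex_eq_one.2 h1] at s6
    rw [relIndex_eq_one.2 h3] at s7
    have zc : P ≤ 𝐂[z] := fun r hr => by
      have k1 : z = y * (a * y * a⁻¹) := by rw [ya, ← mul_assoc, yy, one_mul]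
      rw [k1]
      refine mem_cent1_comm.1 (mul_mem (yt hr) ?_)
      rw [← cc r]
      exact mem_cent1_comm.1 (sw ((cc (a * r * a⁻¹)).symm ▸ yP (nP r hr)))
    have key : ∀ x ∈ E, x ∈ E ⊓ 𝐂[a] ∨ y * x ∈ E ⊓ 𝐂[a] →
        x * (a * x * a⁻¹) ∈ 𝐂[q] := fun x hx h => by
      rcases h with h | h
      · rw [mem_cent1_iff_conj.1 (mem_cent1_comm.1 h.2), el_sq e1 hx]
        exact one_mem _
      · have k1 := mem_cent1_iff_conj.1 (mem_cent1_comm.1 h.2)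
        rw [← conj_mul, ya, mul_assoc y z, mul_right_inj, ← eq_inv_mul_iff_mul_eq] at k1
        rw [k1, ← mul_assoc, mem_cent1.1 (inv_mem (mem_cent1_comm.1 (zc (e2 hx)))), mul_assoc,
          el_sq e1 hx, mul_one]
        exact inv_mem (mem_cent1_comm.1 (zc qP))
    have := card_le_of_le (le_inf e3 (low ha))
    by_cases kw : w ∈ E ⊓ 𝐂[a] ∨ y * w ∈ E ⊓ 𝐂[a]
    · by_cases ks : s ∈ E ⊓ 𝐂[a] ∨ y * s ∈ E ⊓ 𝐂[a]
      · have k1 := cnt_br ww (key w e4 kw)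
        have k2 := cnt_br ss (key s e6 ks)
        rw [br1.2 qs, eq_comm, br1] at k2
        rw [qy, ← cc q, br_conj] at k1
        rcases inn _ (nP q qP) (cc s ▸ sw ((cc q).symm ▸ k2)) with e | e <;> rw [e] at k1
        · exact y1 (by simpa using k1)
        · exact yz (ya.symm.trans k1.symm)
      · have := cnt_four e1 inf_le_left e7 e6 (fun h => ya' h.2) (fun h => ks (.inl h))
          fun h => ks (.inr h)
        omega
    · have := cnt_four e1 inf_le_left e7 e4 (fun h => ya' h.2) (fun h => kw (.inl h))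
        fun h => kw (.inr h)
      omega
  · obtain ⟨t, ht, n⟩ := not_forall₂.1 h3
    have ts : Tv P s ζ := ⟨sP, ss, fun q hq => (em (q ∈ 𝐂[s])).imp br1.2 fun n => (out q hq n).1,
      fun h => n (h ht.1)⟩
    rw [relIndex_eq_one.2 h1] at s6
    rw [ts.rel inf_le_left h3] at s7
    have k1 : 4 * 𝐨(E ⊓ 𝐂[t]) ≤ 𝐨(E) := by
      rcases (out t ht.1 n).2 with e | e
      · refine cnt_four e1 inf_le_left e4 e6 (fun h => η1 (e ▸ br1.2 (mem_cent1_comm.1 h.2)))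
          (fun h => n (mem_cent1_comm.1 h.2)) fun h => ηζ ?_
        rw [← e, cnt_br ww h.2, (out t ht.1 n).1]
      · exact f1 t ht η e ηa ηy
    have := f2 (H := E ⊓ 𝐂[t]) ⟨e7, yt ht.1⟩
    have := card_le_of_le (le_inf (le_inf e3 (low ht.2)) (low ha))
    omega
  · obtain ⟨t, ht, n⟩ := not_forall₂.1 h1
    rw [tw.rel (le_inf (inf_le_right.trans inf_le_left) inf_le_left) h1] at s6
    rw [relIndex_eq_one.2 h3] at s7
    have := f1 t ht.2 1 (by rw [one_mul]; exact tw.eq ⟨ht.2.1, ht.1⟩ n) (by group)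
      (by rwa [one_mul])
    have := f2 (H := E ⊓ 𝐂[t]) ⟨e7, yt ht.2.1⟩
    have := card_le_of_le (le_inf (le_inf e3 (low ht.2.2)) (low ha))
    omega
  · obtain ⟨t, ht, n⟩ := not_forall₂.1 h1
    obtain ⟨r, hr, m⟩ := not_forall₂.1 h3
    have ts : Tv P s ζ := ⟨sP, ss, fun q hq => (em (q ∈ 𝐂[s])).imp br1.2 fun n => (out q hq n).1,
      fun h => m (h hr.1)⟩
    rw [tw.rel (le_inf (inf_le_right.trans inf_le_left) inf_le_left) h1] at s6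
    rw [ts.rel inf_le_left h3] at s7
    have := f1 t ht.2 1 (by rw [one_mul]; exact tw.eq ⟨ht.2.1, ht.1⟩ n) (by group)
      (by rwa [one_mul])
    have := two_le (H := E ⊓ 𝐂[t] ⊓ 𝐂[r]) inf_le_left (x := s) ⟨e6, mem_cent1_comm.1 ht.1⟩
      fun h => m (mem_cent1_comm.1 h.2)
    have := f2 (H := E ⊓ 𝐂[t] ⊓ 𝐂[r]) ⟨⟨e7, yt ht.2.1⟩, yt hr.1⟩
    have := card_le_of_le (le_inf (le_inf (le_inf e3 (low ht.2.2)) (low hr.2)) (low ha))
    omega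

end Cfsg.Agent.P20
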