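/-
P20: the local theorem.
-/
import Cfsg.Agent.P20.Defs

set_option autoImplicit false
set_option linter.unusedSectionVars false

namespace Cfsg.Agent.P20

open Subgroup Cfsg Cfsg.Agent Cfsg.Agent.FT Cfsg.Agent.P19
open Cfsg.Agent.H7.SC
open scoped commutatorElement

universe u

variable {X : Type u} [Group X] [Finite X]

theorem tw_e3 {T J A : Subgroup X} {g y a : X} (s : Tw T J A g y a) :
    ∃ g', E2 T A y a (g' * a * g'⁻¹) := by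
  have hK : 𝐍(J) ⊓ 𝐂(H2.nclIn 𝐍(J) (oz T)) ⊲ 𝐍(J) := ⟨inf_le_left, H1.le_normalizer_inf
    (le_norm_self _) (H1.le_normalizer_centralizer (H2.le_normalizer_nclIn _ _))⟩
  have h1 := s.syl.inf_normal Nat.prime_two hK
  rw [show T ⊓ 𝐍(J) ⊓ (𝐍(J) ⊓ 𝐂(H2.nclIn 𝐍(J) (oz T))) = T ⊓ 𝐂[y] from le_antisymm
    (inf_le_inf inf_le_left (inf_le_right.trans (cent_le_cent1 s.yV)))
    (le_inf s.pr (le_inf (s.pr.trans inf_le_right) s.pv))] at h1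
  obtain ⟨k, hk, g', hg', e⟩ := (mem_sup_of_norm (inf_le_left.trans hK.2)).1
    ((h1.frattini Nat.prime_two hK).ge s.gn)
  have aP : a ∈ 𝐍(T ⊓ 𝐂[y]) :=
    (normal_subgroupOf_iff_le_normalizer s.pr).1 (normal_of_index_eq_two s.idx) ⟨s.aT, s.aH⟩
  have h2 : oz T ^ᵍ g' ≠ oz T := fun r => s.ne (by
    rw [← e, ← conj_conj, r]
    exact conj_eq_of_mem_norm (cent_le_norm _ (cent_anti (H2.le_nclIn _ _) hk.2)))
  have bJ : g' * a * g'⁻¹ ∈ 𝐍(J) := mul_mem (mul_mem hg'.1 s.aH) (inv_mem hg'.1)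
  refine ⟨g', s.sylT.pgrp, (s.toSel.z_le s.gn).trans s.le s.hy, by rw [← pow_two, s.yy],
    s.jj_eq.symm ▸ s.idx, s.jj_eq.symm ▸ s.hA, s.ha, s.ay,
    mul_mem (mul_mem hg'.2 aP) (inv_mem hg'.2), s.t1 bJ fun r => h2 ?_⟩
  have := s.fixa hg'.1 (one_mem _) (by rw [conj_one]; exact conj_eq_self_iff.1 r)
  rw [← this, conj_one]

theorem m3e {T J A : Subgroup X} (s : Sel T J A) {g : X} (g1 : g ∈ 𝐍(J)) (g2 : g ∉ 𝐍(oz T))
    (i1 : (oz T ^ᵍ g).relIndex (oz T) = 2) (i2 : 𝐂(oz T ^ᵍ g).relIndex A = 2) :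
    ∃ y a g', E2 T A y a (g' * a * g'⁻¹) := by
  have i3 : (oz T).relIndex (oz T ^ᵍ g) = 2 := by
    have h1 := H1.card_inf_mul_relIndex (oz T ^ᵍ g) (oz T)
    have h2 := H1.card_inf_mul_relIndex (oz T) (oz T ^ᵍ g)
    rw [card_conj, ← h1, i1, inf_comm] at h2
    exact Nat.eq_of_mul_eq_mul_left Nat.card_pos h2
  obtain ⟨y, y1, y2⟩ := SetLike.not_le_iff_exists.1 fun e : oz T ^ᵍ g ≤ oz T => by
    rw [relIndex_eq_one.2 e] at i3; omega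
  obtain ⟨a, a1, a2⟩ := SetLike.not_le_iff_exists.1 fun e : A ≤ 𝐂(oz T ^ᵍ g) => by
    rw [relIndex_eq_one.2 e] at i2; omega
  exact ⟨y, a, tw_e3 ⟨s, g1, mt conj_eq_self_iff.1 g2, i3, i2, y1, y2, a1, a2⟩⟩

theorem coreStmt (h1 : C1Stmt.{u}) (h2 : C2Stmt.{u}) (h3 : C3Stmt.{u}) : CoreStmt.{u} := by
  intro X _ _ G T B u hG hT
  have := u.nrm
  by_cases T0 : T = ⊥
  · intro g hg
    have : oz T = ⊥ := le_bot_iff.1 (T0 ▸ oz_le T)
    rw [this, conj_bot]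
  have NJ : 𝐍(T) ≤ 𝐍(jj T) := H5.normalizer_le_normalizer_thompsonSubgroupOf T
  have NZ := norm_le_norm_oz T
  have h4 : 𝐍(jj T) ≤ 𝐍(oz T) := fun x hx => by
    obtain ⟨g, hg, β, hβ, rfl⟩ := (mem_sup_of_norm (le_top.trans (normalizer_eq_top G).ge)).1
      (hG.ge (mem_top x))
    have b1 := u.Bn hβ
    exact NZ (mul_mem (le_norm_self T (u.U _ (jj_le T) (H5.thompsonSubgroupOf_ne_bot u.two T0)
      (u.Bn.trans NJ) ⟨hg, (mul_mem_cancel_right (NJ b1)).1 hx⟩)) b1)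
  rcases m1Stmt X T hT h4 with h | ⟨J, A, s⟩
  · exact h
  exfalso
  rcases m2Stmt X T J A s with ⟨Z0, D, a1, a2, a3, a4, a5⟩ | ⟨g, a, b, c, d⟩
  · have a6 : D ≤ 𝐂(oz T) := (le_inf (a4 G u.nrm u.TG) (a3.trans inf_le_left)).trans
      ((u.U _ (oz_le T) (oz_ne_bot u.two T0) (u.Bn.trans NZ)).trans (le_cent_oz T))
    obtain ⟨x, x1, x2⟩ := SetLike.not_le_iff_exists.1 fun e : oz T ≤ Z0 => by
      rw [relIndex_eq_one.2 e] at a2; omega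
    have : Z0.relIndex (oz T) = 2 := relIndex_eq_two_iff_exists_notMem_and'.2 ⟨x⁻¹, inv_mem x1,
      fun r => x2 (inv_mem_iff.1 r), fun y hy => (em (y ∈ Z0)).elim .inr fun r => .inl (by
        obtain ⟨d, hd, e⟩ := a5 x x1 x2 y hy r
        rwa [← mem_cent.1 (a6 hd) x x1, mul_inv_cancel_right] at e)⟩
    omega
  obtain ⟨y, a, g, e⟩ := m3e s a b c d
  have aT : a ∈ T := (e.hA.1 e.ha).1
  have l : Lc G T B A y a (g * a * g⁻¹) :=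
    ⟨e, u, K.conj_sq (K.el_sq e.hA.2.1 e.ha) g, u.nrm.conj_mem a (u.TG aT) g⟩
  exact h3 X G T B A _ _ _ _ (h2 X G T B A y a _ l (h1 X G T B A y a _ l))

end Cfsg.Agent.P20
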