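/-
P20, chapter D1: commuting members have the same centralizer.
-/
import Cfsg.Agent.P20.D0

set_option autoImplicit false
set_option linter.unusedSectionVars false

namespace Cfsg.Agent.P20

open Subgroup Cfsg Cfsg.Agent Cfsg.Agent.FT Cfsg.Agent.P19

universe u

variable {X : Type u} [Group X] [Finite X]

namespace D1

variable {S B : Subgroup X} {y x z : X}

theorem key (c : DC S B y z) (c' : DC S B x z) (h : x ∈ 𝐂[y]) {t : X} (ht : t ∈ S ⊓ 𝐂[y])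
    (ht' : t ∈ S ⊓ 𝐍(S ⊓ 𝐂[x])) : t ∈ 𝐂[x] := by
  by_contra e
  have e1 : z = x * t * (x * t) * (t⁻¹ * t⁻¹) := by
    calc z = x * (x * z) := by rw [← mul_assoc, c'.yy, one_mul]
      _ = _ := by rw [← c'.eqz ht' e]; group
  exact c.nz (e1 ▸ mul_mem (sq_mem_sqs (mul_mem (mem_inf.2 ⟨c'.yS, h⟩) ht))
    (sq_mem_sqs (inv_mem ht)))

theorem nil (c : DC S B y z) {L : Subgroup X} (h : L ≤ S) : Group.IsNilpotent L :=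
  isNilpotent_of_isPGroup Nat.prime_two (c.two.to_le h)

theorem le (c : DC S B y z) (c' : DC S B x z) (h : x ∈ 𝐂[y]) : S ⊓ 𝐂[y] ≤ S ⊓ 𝐂[x] := by
  by_contra hR
  obtain ⟨⟨y, x⟩, ⟨c, c', h, hR⟩, hm⟩ := Set.exists_max_image
    {p : X × X | DC S B p.1 z ∧ DC S B p.2 z ∧ p.2 ∈ 𝐂[p.1] ∧ ¬ S ⊓ 𝐂[p.1] ≤ S ⊓ 𝐂[p.2]}
    (fun p => 𝐨(S ⊓ 𝐂[p.1] ⊓ (S ⊓ 𝐂[p.2]))) (Set.toFinite _) ⟨(y, x), c, c', h, hR⟩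
  dsimp only at c c' h hR hm
  have ex : ∀ {y x : X}, DC S B y z → DC S B x z → x ∈ 𝐂[y] → ¬ S ⊓ 𝐂[y] ≤ S ⊓ 𝐂[x] →
      ¬ S ⊓ 𝐂[y] ⊓ 𝐍(S ⊓ 𝐂[y] ⊓ (S ⊓ 𝐂[x])) ≤ S ⊓ 𝐍(S ⊓ 𝐂[x]) := by
    intro y x c c' h hR l
    obtain ⟨t, t1, t2, t3⟩ := H1.exists_mem_normalizer_of_lt (nil c inf_le_left)
      (lt_of_le_of_ne (inf_le_left : S ⊓ 𝐂[y] ⊓ (S ⊓ 𝐂[x]) ≤ _) fun e => hR (inf_eq_left.1 e))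
    exact t3 (mem_inf.2 ⟨t1, mem_inf.2 ⟨t1.1, key c c' h t1 (l (mem_inf.2 ⟨t1, t2⟩))⟩⟩)
  refine ex c c' h hR ((inf_le_inf_right _ inf_le_left).trans (by_contra fun e => ?_))
  obtain ⟨n, ⟨n1, n2⟩, n3, n4⟩ := H1.exists_mem_normalizer_of_lt (nil c inf_le_left)
    (lt_of_le_of_ne (inf_le_left : S ⊓ 𝐍(S ⊓ 𝐂[y] ⊓ (S ⊓ 𝐂[x])) ⊓ (S ⊓ 𝐍(S ⊓ 𝐂[x])) ≤ _)
      fun e' => e (inf_eq_left.1 e'))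
  have n0 : n ∈ S ⊔ B := mem_sup_left n1
  have x0 : x ∈ S ⊓ 𝐂[y] ⊓ (S ⊓ 𝐂[x]) :=
    mem_inf.2 ⟨mem_inf.2 ⟨c'.yS, h⟩, mem_inf.2 ⟨c'.yS, self_mem_cent1 x⟩⟩
  have x1 : n * x * n⁻¹ ∈ 𝐂[x] := ((mem_normalizer_iff.1 n2 x).1 x0).2.2
  have nl : ¬ S ⊓ 𝐂[x] ≤ S ⊓ 𝐂[n * x * n⁻¹] := fun l => n4 (mem_inf.2 ⟨⟨n1, n2⟩, mem_inf.2 ⟨n1, by
    rw [c'.cP n0] at l
    exact inv_mem_iff.1 (mem_norm_of_conj_le (le_conj_iff.1 l))⟩⟩)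
  have l : S ⊓ 𝐂[y] ⊓ (S ⊓ 𝐂[x]) ≤ S ⊓ 𝐂[x] ⊓ (S ⊓ 𝐂[n * x * n⁻¹]) := le_inf inf_le_right (by
    rw [c'.cP n0, ← conj_eq_of_mem_norm n2]
    exact conj_mono inf_le_right n)
  have l' := H1.eq_of_le_of_card_le l (hm (x, n * x * n⁻¹) ⟨c', c'.conj n0, x1, nl⟩)
  refine ex c' (c'.conj n0) x1 nl fun t ht => ?_
  rw [c'.cR n0]
  refine conj_mono (inf_le_right : S ⊓ 𝐍(S ⊓ 𝐂[y] ⊓ (S ⊓ 𝐂[x])) ⊓ (S ⊓ 𝐍(S ⊓ 𝐂[x])) ≤ _) n ?_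
  rw [conj_eq_of_mem_norm n3]
  exact mem_inf.2 ⟨mem_inf.2 ⟨ht.1.1, l' ▸ ht.2⟩, c'.PR ht.1⟩

end D1

theorem d1Stmt : D1Stmt.{u} := fun _ _ _ _ _ _ _ c _ h e =>
  inv_mem_iff.1 (mem_norm_of_conj_le (le_conj_iff.1 (c.cP h ▸ D1.le c (c.conj h) e)))

end Cfsg.Agent.P20
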