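/-
P20, chapter D2.
-/
import Cfsg.Agent.P20.D0

set_option autoImplicit false
set_option linter.unusedSectionVars false

namespace Cfsg.Agent.P20

open Subgroup Cfsg Cfsg.Agent Cfsg.Agent.FT Cfsg.Agent.P19

universe u

variable {X : Type u} [Group X] [Finite X]

namespace DC

variable {S B : Subgroup X} {y z : X} (c : DC S B y z)
include c

/-- Two involutions of `R ∖ P`, one of them a conjugate `y ^ s` with `R ^ s = R`, commute. -/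
theorem comm2 {s w : X} (hs : s ∈ S ⊔ B) (hn : s ∈ 𝐍(S ⊓ 𝐍(S ⊓ 𝐂[y]))) (h1 : s * y * s⁻¹ ∉ 𝐂[y])
    (hw : w ∈ S ⊓ 𝐍(S ⊓ 𝐂[y])) (h2 : w ∉ 𝐂[y]) (ww : w * w = 1) : w ∈ 𝐂[s * y * s⁻¹] := by
  by_contra n
  have h3 := (c.conj hs).eqz (by rwa [c.cR hs, conj_eq_of_mem_norm hn]) n
  have h4 := sq_mem_sqs (c.mulP ((mem_normalizer_iff.1 hn y).1 c.yR) hw h1 h2)
  have h5 := (c.conj hs).yy
  generalize s * y * s⁻¹ = v at *
  rw [K.inv2 ww] at h3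
  rw [show v * w * (v * w) = v * (w * v * w) by group, h3, ← mul_assoc, h5, one_mul] at h4
  exact c.nz h4

variable (D1 : D1Stmt.{u})
include D1

theorem rel {γ δ : X} (h1 : γ ∈ S ⊔ B) (h2 : δ ∈ S ⊔ B) (h : δ * y * δ⁻¹ ∈ 𝐂[γ * y * γ⁻¹]) :
    γ⁻¹ * δ ∈ 𝐍(S ⊓ 𝐂[y]) := by
  refine D1 X S B y z c _ (mul_mem (inv_mem h1) h2) ?_
  rw [cent1_conj, mem_conj] at h
  convert h using 1
  group

theorem sqz {d : X} (hd : d ∈ S) (h : y * d * y⁻¹ = d⁻¹) (h1 : d * d ≠ 1)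
    (h2 : d * d * (d * d) = 1) : d * d = z := by
  have e : d * y * d⁻¹ = y * (d * d) := by
    rw [K.cj c.yy, commutatorElement_def, h, ← mul_inv_rev, K.inv2 h2]
  have r := D1 X S B y z c d (mem_sup_left hd) (by
    rw [e]
    refine mul_mem (self_mem_cent1 y) (mem_cent1_comm.1 (mem_cent1_iff_conj.2 ?_))
    rw [← conj_mul, h, ← mul_inv_rev, K.inv2 h2])
  have := c.tv d (mem_inf.2 ⟨hd, r⟩)
  rw [e] at this
  exact mul_left_cancel (this.resolve_left fun r => h1 (by simpa using r))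

variable {s : X} (hs : s ∈ S) (hn : s ∈ 𝐍(S ⊓ 𝐍(S ⊓ 𝐂[y]))) (h1 : s * y * s⁻¹ ∉ 𝐂[y])
include hs hn h1

theorem cases {γ : X} (h : γ ∈ S ⊔ B) (hR : γ * y * γ⁻¹ ∈ S ⊓ 𝐍(S ⊓ 𝐂[y])) :
    γ ∈ 𝐍(S ⊓ 𝐂[y]) ∨ s⁻¹ * γ ∈ 𝐍(S ⊓ 𝐂[y]) :=
  (em (γ * y * γ⁻¹ ∈ 𝐂[y])).imp (D1 X S B y z c γ h) fun r => c.rel D1 (mem_sup_left hs) h
    (c.comm2 (mem_sup_left hs) hn h1 hR r (c.conj h).yy)

theorem YY {t : X} (ht : t ∈ S) (hR : t * y * t⁻¹ ∈ S ⊓ 𝐍(S ⊓ 𝐂[y])) :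
    ∃ w, (w = 1 ∨ w = z) ∧ (t * y * t⁻¹ = y * w ∨ t * y * t⁻¹ = s * y * s⁻¹ * w) := by
  rcases c.cases D1 hs hn h1 (mem_sup_left ht) hR with h | h
  · rcases c.tv t (mem_inf.2 ⟨ht, h⟩) with e | e
    · exact ⟨1, .inl rfl, .inl (by simpa using e)⟩
    · exact ⟨z, .inr rfl, .inl e⟩
  · have e0 : t * y * t⁻¹ = s * (s⁻¹ * t * y * (s⁻¹ * t)⁻¹) * s⁻¹ := by group
    rcases c.tv _ (mem_inf.2 ⟨mul_mem (inv_mem hs) ht, h⟩) with e | e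
    · exact ⟨1, .inl rfl, .inr (by rw [e0, e, mul_one])⟩
    · exact ⟨z, .inr rfl, .inr (by rw [e0, e, ← conj_mul, c.fz (mem_sup_left hs)])⟩

theorem UU {d : X} (hd : d ∈ S) (h : y * d * y⁻¹ = d⁻¹) (h2 : d * d * (d * d) = z) :
    ∃ w, (w = 1 ∨ w = z) ∧ d * d = y * (s * y * s⁻¹) * w := by
  have e : d⁻¹ * y * d⁻¹⁻¹ = y * (d * d) := by
    rw [inv_inv, ← h, inv_mul_cancel_right, mul_assoc]
  have e2 : d * d * y * (d * d)⁻¹ = y * z := by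
    rw [K.cj c.yy, commutatorElement_def, ← conj_mul, h, ← mul_inv_rev, ← mul_inv_rev, h2,
      K.inv2 c.zz]
  obtain ⟨w, w1, w2⟩ := c.YY D1 hs hn h1 (inv_mem hd)
    (e ▸ mul_mem c.yR (c.memR (mul_mem hd hd) e2))
  rw [e] at w2
  refine ⟨w, w1, w2.elim (fun r => (c.z1 ?_).elim) fun r => ?_⟩
  · rw [← h2, mul_left_cancel r]
    rcases w1 with rfl | rfl
    exacts [one_mul _, c.zz]
  · rw [mul_assoc y, ← r, ← mul_assoc, c.yy, one_mul]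

theorem fixU {γ : X} (h : γ ∈ S ⊔ B) (hγ : γ ∉ 𝐍(S ⊓ 𝐍(S ⊓ 𝐂[y]))) : ∃ w, (w = 1 ∨ w = z) ∧
    γ * (y * (s * y * s⁻¹)) * γ⁻¹ = y * (s * y * s⁻¹) * w := by
  have hR : γ * y * γ⁻¹ ∉ S ⊓ 𝐍(S ⊓ 𝐂[y]) := fun r => hγ <|
    (c.cases D1 hs hn h1 h r).elim (c.NR h) fun r' => by
      simpa using mul_mem hn (c.NR (mul_mem (inv_mem (mem_sup_left hs)) h) r')
  have c' := c.conj h
  have eS := mul_mem c.yS c'.yS
  have i1 : y * (y * (γ * y * γ⁻¹)) * y⁻¹ = (y * (γ * y * γ⁻¹))⁻¹ := by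
    rw [mul_inv_rev, K.inv2 c'.yy, ← mul_assoc, c.yy, one_mul]
  have i2 : γ * y * γ⁻¹ * (y * (γ * y * γ⁻¹)) * (γ * y * γ⁻¹)⁻¹ = (y * (γ * y * γ⁻¹))⁻¹ := by
    rw [mul_inv_rev y, K.inv2 c'.yy, K.inv2 c.yy, mul_assoc, mul_assoc y, c'.yy, mul_one]
  have e1 : γ * y * γ⁻¹ * y * (γ * y * γ⁻¹)⁻¹ = y * (y * (γ * y * γ⁻¹) * (y * (γ * y * γ⁻¹))) := by
    rw [K.inv2 c'.yy, ← mul_assoc y, ← mul_assoc y, c.yy, one_mul, mul_assoc _ y]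
  obtain ⟨k, hk⟩ := c.two ⟨_, mul_mem eS eS⟩
  obtain ⟨-, ⟨d, d1, d2, d3, rfl⟩, d5, d6⟩ := EA.four (fun u => ∃ d ∈ S, y * d * y⁻¹ = d⁻¹ ∧
      γ * y * γ⁻¹ * d * (γ * y * γ⁻¹)⁻¹ = d⁻¹ ∧ u = d * d)
    (fun u ⟨d, u1, u3, u4, u5⟩ => ⟨d * d, mul_mem u1 u1, by rw [← conj_mul, u3, mul_inv_rev],
      by rw [← conj_mul (b := γ * y * γ⁻¹), u4, mul_inv_rev], by rw [u5]⟩) k _
    (congrArg Subtype.val hk) (fun r => hR (by
      by_cases r' : y * (γ * y * γ⁻¹) * (y * (γ * y * γ⁻¹)) = 1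
      · exact c.PR (mem_inf.2 ⟨c'.yS, mem_cent1_iff_conj.2 (by rw [e1, r', mul_one])⟩)
      · exact c.memR c'.yS (by rw [e1, c.sqz D1 eS i1 r' r]))) ⟨_, eS, i1, i2, rfl⟩
  have d7 := c.sqz D1 (mul_mem d1 d1) (by rw [← conj_mul, d2, mul_inv_rev]) d5 d6
  obtain ⟨w, w1, w2⟩ := c.UU D1 hs hn h1 d1 d2 d7
  obtain ⟨x, x1, x2⟩ := c.UU D1 hs hn h1 (c.cS (inv_mem h) d1)
    (by calc _ = γ⁻¹ * (γ * y * γ⁻¹ * d * (γ * y * γ⁻¹)⁻¹) * γ := by group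
      _ = _ := by rw [d3]; group)
    (by rw [conj_mul, conj_mul, d7, c.fz (inv_mem h)])
  have x3 : γ * (y * (s * y * s⁻¹)) * γ⁻¹ * (γ * x * γ⁻¹) = y * (s * y * s⁻¹) * w := by
    rw [conj_mul (b := γ), ← x2, ← w2]; group
  rcases x1 with rfl | rfl
  · exact ⟨w, w1, by simpa using x3⟩
  · rw [c.fz h, ← eq_mul_inv_iff_mul_eq, K.inv2 c.zz, mul_assoc _ w] at x3
    refine ⟨_, ?_, x3⟩
    rcases w1 with rfl | rfl
    exacts [.inr (one_mul _), .inl c.zz]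

end DC

theorem d2aStmt (D1 : D1Stmt.{u}) : D2aStmt.{u} := by
  intro X _ _ S B y z c h β hβ
  by_contra n
  have b1 : β ∈ S ⊔ B := mem_sup_right hβ
  have h2 : β * β ∈ 𝐍(S ⊓ 𝐂[y]) := D1 X S B y z c _ (mul_mem b1 b1) (by_contra fun r => n (by
    simpa using c.rel D1 b1 (mul_mem b1 b1) (c.comm2 b1 (h hβ) (fun e => n (D1 X S B y z c β b1 e))
      ((mem_normalizer_iff.1 (h (mul_mem hβ hβ)) y).1 c.yR) r (K.conj_sq c.yy _))))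
  refine n (zpowers_le.2 h2 ?_)
  rw [← pow_two, mem_zpowers_pow_iff]
  exact (Nat.coprime_two_left.2 (c.odd.of_dvd_nat (orderOf_dvd_natCard B hβ)))

theorem d2bStmt (D1 : D1Stmt.{u}) : D2bStmt.{u} := by
  intro X _ _ S B y z c
  refine (em _).imp_right fun hB => ?_
  obtain ⟨s, hs, hn, s3⟩ := H1.exists_mem_normalizer_of_lt
    (isNilpotent_of_isPGroup Nat.prime_two c.two) (lt_of_le_of_ne
      (inf_le_left : S ⊓ 𝐍(S ⊓ 𝐂[y]) ≤ S) fun e => hB (by rw [e]; exact c.Bn))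
  have h1 : s * y * s⁻¹ ∉ 𝐂[y] := fun r =>
    s3 (mem_inf.2 ⟨hs, D1 X S B y z c s (mem_sup_left hs) r⟩)
  have vR := (mem_normalizer_iff.1 hn y).1 c.yR
  have vv := K.conj_sq c.yy s
  refine ⟨y * (s * y * s⁻¹), mul_mem c.yR vR,
    fun r => h1 ((mul_mem_cancel_left (self_mem_cent1 y)).1 r), ?_, fun γ h => ?_, fun n h => ?_⟩
  · have := c.eqz vR h1
    rw [K.inv2 vv] at this
    rw [mul_assoc, ← mul_assoc _ y (s * y * s⁻¹), this, ← mul_assoc, c.yy, one_mul]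
  · obtain ⟨β, hβ, b1⟩ := not_forall₂.1 hB
    have fx := fun {γ : X} => c.fixU D1 hs hn h1 (γ := γ)
    generalize y * (s * y * s⁻¹) = u at fx ⊢
    suffices ∃ w, (w = 1 ∨ w = z) ∧ γ * u * γ⁻¹ = u * w by
      obtain ⟨w, rfl | rfl, e⟩ := this
      exacts [.inl (by simpa using e), .inr e]
    by_cases hγ : γ ∈ 𝐍(S ⊓ 𝐍(S ⊓ 𝐂[y]))
    swap
    · exact fx h hγ
    obtain ⟨w, w1, w2⟩ := fx (mem_sup_right hβ) b1
    obtain ⟨x, x1, x2⟩ := fx (mul_mem (inv_mem h) (mem_sup_right hβ))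
      fun r => b1 (by simpa using mul_mem hγ r)
    have x3 : γ * u * γ⁻¹ * (γ * x * γ⁻¹) = u * w := by
      rw [conj_mul, ← x2, ← w2]; group
    rcases x1 with rfl | rfl
    · exact ⟨w, w1, by simpa using x3⟩
    · rw [c.fz h, ← eq_mul_inv_iff_mul_eq, K.inv2 c.zz, mul_assoc _ w] at x3
      refine ⟨_, ?_, x3⟩
      rcases w1 with rfl | rfl
      exacts [.inr (one_mul _), .inl c.zz]
  · obtain ⟨w, w1, w2⟩ := c.YY D1 hs hn h1 h.1 ((mem_normalizer_iff.1 h.2 y).1 c.yR)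
    refine ⟨w, w1.elim (fun e => e ▸ one_mem _) fun e => e ▸ mem_zpowers _, w2.imp_right fun e => ?_⟩
    rw [e, ← mul_assoc y y, c.yy, one_mul]

end Cfsg.Agent.P20
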