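/-
P20, chapter D3: the invariance lemma by induction on `|S|`.
-/
import Cfsg.Agent.P20.Defs

set_option autoImplicit false
set_option linter.unusedSectionVars false

namespace Cfsg.Agent.P20
namespace D3

open Subgroup Cfsg Cfsg.Agent Cfsg.Agent.FT Cfsg.Agent.P19
open scoped commutatorElement

universe u

variable {X : Type u} [Group X] [Finite X]

theorem sqs_map {Y : Type u} [Group Y] [Finite Y] (f : Y →* X) (P : Subgroup Y) :
    (sqs P).map f ≤ sqs (P.map f) := by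
  rw [map_le_iff_le_comap]
  unfold sqs
  rw [closure_le]
  rintro x ⟨p, hp, rfl⟩
  exact subset_closure ⟨f p, mem_map_of_mem f hp, map_mul f p p⟩

theorem sqs_le_of {P K : Subgroup X} (h : ∀ p ∈ P, p * p ∈ K) : sqs P ≤ K := by
  unfold sqs
  rw [closure_le]
  rintro x ⟨p, hp, rfl⟩
  exact h p hp

theorem of_map {Y : Type u} [Group Y] [Finite Y] {f : Y →* X} (hf : Function.Injective f)
    {S B : Subgroup Y} {y z : Y} (h : DC (S.map f) (B.map f) (f y) (f z)) : DC S B y z where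
  two := (isPGroup_map_iff hf).1 h.two
  Bn := (map_le_norm_iff hf).1 h.Bn
  odd := by have := h.odd; rwa [card_map_inj hf] at this
  zS := (mem_map_iff_mem hf).1 h.zS
  zc := by
    intro g hg
    have : f g ∈ 𝐂[f z] := h.zc (by rw [← Subgroup.map_sup]; exact mem_map_of_mem f hg)
    rw [mem_cent1] at this ⊢
    apply hf
    rw [map_mul, map_mul, this]
  zz := hf (by rw [map_mul, map_one, h.zz])
  yS := (mem_map_iff_mem hf).1 h.yS
  yy := hf (by rw [map_mul, map_one, h.yy])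
  tv := by
    intro n hn
    have h1 : f n ∈ S.map f ⊓ 𝐍(S.map f ⊓ 𝐂[f y]) := by
      rw [← map_inf_cent1 hf, ← map_inf_norm hf]
      exact mem_map_of_mem f hn
    rcases h.tv _ h1 with e | e
    · left; apply hf; rw [map_mul, map_mul, map_inv, e]
    · right; apply hf; rw [map_mul, map_mul, map_inv, map_mul, e]
  nz := by
    intro hz
    apply h.nz
    rw [← map_inf_cent1 hf]
    exact sqs_map f _ (mem_map_of_mem f hz)

theorem conj {S B : Subgroup X} {y z : X} (h : DC S B y z) {s : X} (hs : s ∈ S) :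
    DC S B (s * y * s⁻¹) z where
  two := h.two
  Bn := h.Bn
  odd := h.odd
  zS := h.zS
  zc := h.zc
  zz := h.zz
  yS := S.mul_mem (S.mul_mem hs h.yS) (S.inv_mem hs)
  yy := by
    have : s * y * s⁻¹ * (s * y * s⁻¹) = s * (y * y) * s⁻¹ := by group
    rw [this, h.yy]; group
  tv := by
    intro n hn
    have e1 : S ⊓ 𝐂[s * y * s⁻¹] = (S ⊓ 𝐂[y]) ^ᵍ s := by
      rw [conj_inf, cent1_conj, conj_eq_of_mem hs]
    have h1 : s⁻¹ * n * s ∈ S ⊓ 𝐍(S ⊓ 𝐂[y]) := by
      refine ⟨S.mul_mem (S.mul_mem (S.inv_mem hs) hn.1) hs, ?_⟩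
      have := hn.2
      rw [e1, norm_conj] at this
      exact mem_conj.1 this
    have hz : z * s = s * z := mem_cent1.1 (h.zc (le_sup_left (b := B) hs))
    rcases h.tv _ h1 with e | e
    · left
      have : n * (s * y * s⁻¹) * n⁻¹ = s * (s⁻¹ * n * s * y * (s⁻¹ * n * s)⁻¹) * s⁻¹ := by group
      rw [this, e]
    · right
      have : n * (s * y * s⁻¹) * n⁻¹ = s * (s⁻¹ * n * s * y * (s⁻¹ * n * s)⁻¹) * s⁻¹ := by group
      rw [this, e]
      have : s * y * s⁻¹ * z = s * y * s⁻¹ * (z * s) * s⁻¹ := by group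
      rw [this, hz]; group
  nz := by
    intro hz
    apply h.nz
    have e1 : S ⊓ 𝐂[s * y * s⁻¹] = (S ⊓ 𝐂[y]) ^ᵍ s := by
      rw [conj_inf, cent1_conj, conj_eq_of_mem hs]
    have hzs : z * s = s * z := mem_cent1.1 (h.zc (le_sup_left (b := B) hs))
    have : sqs (S ⊓ 𝐂[s * y * s⁻¹]) ≤ (sqs (S ⊓ 𝐂[y])) ^ᵍ s := by
      apply sqs_le_of
      intro p hp
      rw [e1] at hp
      rw [mem_conj] at hp ⊢
      have : s⁻¹ * (p * p) * s = s⁻¹ * p * s * (s⁻¹ * p * s) := by group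
      rw [this]
      exact subset_closure ⟨_, hp, rfl⟩
    have h2 := mem_conj.1 (this hz)
    have : s⁻¹ * z * s = z := by rw [mul_assoc, hzs]; group
    rwa [this] at h2

theorem mem_zp {z c : X} (zz : z * z = 1) (hc : c ∈ zpowers z) : c = 1 ∨ c = z := by
  obtain ⟨k, rfl⟩ := hc
  have z2 : z ^ (2 : ℤ) = 1 := by rw [zpow_two, zz]
  rcases Int.even_or_odd' k with ⟨m, rfl | rfl⟩
  · left; simp only [zpow_mul, z2, one_zpow]
  · right; simp only [zpow_add, zpow_mul, z2, one_zpow, zpow_one, one_mul]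

theorem step (D2a : D2aStmt.{u}) (D2b : D2bStmt.{u}) {S B : Subgroup X} {y z : X}
    (h : DC S B y z) (cz : ∀ g : X, z * g = g * z)
    (IH : ∀ (Y : Type u) [Group Y] [Finite Y] (S' B' : Subgroup Y) (y' z' : Y), 𝐨(S') < 𝐨(S) →
      DC S' B' y' z' → ∃ s ∈ S', B' ≤ 𝐍((S' ⊓ 𝐂[y']) ^ᵍ s)) :
    ∃ s ∈ S, B ≤ 𝐍((S ⊓ 𝐂[y]) ^ᵍ s) := by
  rcases D2b X S B y z h with hB | ⟨u, uR, uy, uu, uc, un⟩
  · exact ⟨1, S.one_mem, by rw [conj_one]; exact D2a X S B y z h hB⟩
  have z1 : z ≠ 1 := fun e => h.nz (e ▸ (sqs _).one_mem)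
  haveI nZ : (zpowers z).Normal := ⟨fun c hc g => by
    rcases mem_zp h.zz hc with rfl | rfl
    · simp
    · rw [← cz, mul_inv_cancel_right]; exact mem_zpowers _⟩
  let f : X →* X ⧸ zpowers z := QuotientGroup.mk' _
  have kf : f.ker = zpowers z := QuotientGroup.ker_mk' _
  have fz : f z = 1 := by rw [← MonoidHom.mem_ker, kf]; exact mem_zpowers _
  have feq : ∀ a b : X, f a = f b → a = b ∨ a = b * z := by
    intro a b e
    have : b⁻¹ * a ∈ zpowers z := by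
      rw [← kf, MonoidHom.mem_ker, map_mul, map_inv, e, inv_mul_cancel]
    rcases mem_zp h.zz this with e | e
    · left; exact (inv_mul_eq_one.1 e).symm
    · right; rw [← e]; group
  have zP : z ∈ S ⊓ 𝐂[y] := ⟨h.zS, mem_cent1.2 (cz y).symm⟩
  have zR : z ∈ S ⊓ 𝐍(S ⊓ 𝐂[y]) := ⟨h.zS, le_normalizer zP⟩
  have cyz : 𝐂[y * z] = 𝐂[y] := by
    ext g
    rw [mem_cent1, mem_cent1, mul_assoc, cz, ← mul_assoc, ← mul_assoc, mul_left_inj]
  have hR : S.map f ⊓ 𝐂[f y] = (S ⊓ 𝐍(S ⊓ 𝐂[y])).map f := by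
    apply le_antisymm
    · rintro _ ⟨⟨t, ht, rfl⟩, hc⟩
      refine mem_map_of_mem f ⟨ht, ?_⟩
      have hc' := mem_cent1_iff_conj.1 hc
      have e : 𝐂[t * y * t⁻¹] = 𝐂[y] := by
        rcases feq (t * y * t⁻¹) y (by rw [map_mul, map_mul, map_inv, hc']) with e | e
        · rw [e]
        · rw [e, cyz]
      apply conj_eq_self_iff.1
      rw [conj_inf, ← cent1_conj, e, conj_eq_of_mem ht]
    · rintro _ ⟨t, ht, rfl⟩
      refine ⟨mem_map_of_mem f ht.1, mem_cent1_iff_conj.2 ?_⟩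
      rw [← map_inv, ← map_mul, ← map_mul]
      rcases h.tv t ht with e | e
      · rw [e]
      · rw [e, map_mul, fz, mul_one]
  have nrm : ∀ (K : Subgroup X) (g : X), z ∈ K → f g ∈ 𝐍(K.map f) → g ∈ 𝐍(K) := by
    intro K g zK hg
    apply mem_norm_of_conj_le
    intro x hx
    obtain ⟨k, hk, rfl⟩ := mem_conj'.1 hx
    have : f g * f k * (f g)⁻¹ ∈ K.map f := (mem_normalizer_iff.1 hg _).1 (mem_map_of_mem f hk)
    obtain ⟨k', hk', e⟩ := this
    rcases feq (g * k * g⁻¹) k' (by rw [map_mul, map_mul, map_inv, e]) with e | e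
    · rw [e]; exact hk'
    · rw [e]; exact K.mul_mem hk' zK
  have dc : DC (S.map f) (B.map f) (f y) (f u) :=
    { two := h.two.map f
      Bn := (map_mono h.Bn).trans (le_normalizer_map f)
      odd := Odd.of_dvd_nat h.odd (card_map_dvd B f)
      zS := mem_map_of_mem f uR.1
      zc := by
        rw [← Subgroup.map_sup]
        rintro _ ⟨g, hg, rfl⟩
        apply mem_cent1_iff_conj.2
        rw [← map_inv, ← map_mul, ← map_mul]
        rcases uc g hg with e | e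
        · rw [e]
        · rw [e, map_mul, fz, mul_one]
      zz := by rw [← map_mul, uu, fz]
      yS := mem_map_of_mem f h.yS
      yy := by rw [← map_mul, h.yy, map_one]
      tv := by
        rintro _ ⟨⟨n, hn, rfl⟩, hn2⟩
        rw [hR] at hn2
        obtain ⟨c, hc, e⟩ := un n ⟨hn, nrm _ n zR hn2⟩
        have fc : f c = 1 := by rw [← MonoidHom.mem_ker, kf]; exact hc
        rw [← map_inv, ← map_mul, ← map_mul]
        rcases e with e | e
        · left; rw [e, map_mul, fc, mul_one]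
        · right; rw [e, map_mul, fc, mul_one, map_mul]
      nz := by
        rw [hR]
        intro hu
        have : sqs ((S ⊓ 𝐍(S ⊓ 𝐂[y])).map f) ≤ (S ⊓ 𝐂[y]).map f := by
          apply sqs_le_of
          rintro _ ⟨t, ht, rfl⟩
          rw [← map_mul]
          refine mem_map_of_mem f ⟨S.mul_mem ht.1 ht.1, mem_cent1_iff_conj.2 ?_⟩
          have e0 : t * t * y * (t * t)⁻¹ = t * (t * y * t⁻¹) * t⁻¹ := by group
          rcases h.tv t ht with e | e
          · rw [e0, e, e]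
          · have e1 : t * (y * z) * t⁻¹ = t * y * t⁻¹ * z := by
              rw [mul_assoc (t * y) t⁻¹ z, ← cz t⁻¹]; group
            rw [e0, e, e1, e, mul_assoc, h.zz, mul_one]
        obtain ⟨p, hp, e⟩ := this hu
        apply uy
        rcases feq u p e.symm with e | e
        · rw [e]; exact hp.2
        · rw [e]; exact ((S ⊓ 𝐂[y]).mul_mem hp zP).2 }
  have lt : 𝐨(S.map f) < 𝐨(S) := by
    have hs : Function.Surjective (f.subgroupMap S) := f.subgroupMap_surjective S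
    refine lt_of_le_of_ne (Nat.card_le_card_of_surjective _ hs) fun e => z1 ?_
    have hb := hs.bijective_of_nat_card_le e.ge
    have : (⟨z, h.zS⟩ : S) = 1 := hb.1 (by
      rw [map_one]; exact Subtype.ext fz)
    exact congrArg Subtype.val this
  obtain ⟨_, ⟨s, hs, rfl⟩, hB⟩ := IH _ _ _ _ _ lt dc
  refine ⟨s, hs, ?_⟩
  have e1 : S ⊓ 𝐂[s * y * s⁻¹] = (S ⊓ 𝐂[y]) ^ᵍ s := by
    rw [conj_inf, cent1_conj, conj_eq_of_mem hs]
  rw [← e1]
  apply D2a X S B _ z (conj h hs)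
  have e2 : S ⊓ 𝐍(S ⊓ 𝐂[s * y * s⁻¹]) = (S ⊓ 𝐍(S ⊓ 𝐂[y])) ^ᵍ s := by
    rw [e1, norm_conj, conj_inf, conj_eq_of_mem hs]
  have e3 : ((S ⊓ 𝐍(S ⊓ 𝐂[y])) ^ᵍ s).map f = ((S ⊓ 𝐍(S ⊓ 𝐂[y])).map f) ^ᵍ (f s) := by
    ext x
    constructor
    · rintro ⟨k, hk, rfl⟩
      obtain ⟨k', hk', rfl⟩ := mem_conj'.1 hk
      rw [map_mul, map_mul, map_inv]
      exact conj_mem_conj (mem_map_of_mem f hk') _
    · intro hx
      obtain ⟨_, ⟨k, hk, rfl⟩, rfl⟩ := mem_conj'.1 hx
      rw [← map_inv, ← map_mul, ← map_mul]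
      exact mem_map_of_mem f (conj_mem_conj hk _)
  rw [e2]
  intro b hb
  apply nrm _ b
  · rw [mem_conj, mul_assoc, cz, inv_mul_cancel_left]; exact zR
  · rw [e3, ← hR]; exact hB (mem_map_of_mem f hb)

end D3

open Subgroup Cfsg Cfsg.Agent Cfsg.Agent.FT Cfsg.Agent.P19

universe u

theorem diStmt (D2a : D2aStmt.{u}) (D2b : D2bStmt.{u}) : DIStmt.{u} := by
  suffices H : ∀ (n : ℕ) (X : Type u) [Group X] [Finite X] (S B : Subgroup X) (y z : X),
      𝐨(S) = n → DC S B y z → ∃ s ∈ S, B ≤ 𝐍((S ⊓ 𝐂[y]) ^ᵍ s) from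
    fun X _ _ S B y z h => H _ X S B y z rfl h
  intro n
  induction n using Nat.strong_induction_on with
  | _ n IH =>
  intro X _ _ S B y z hn h
  have hS : S ≤ 𝐂[z] := le_sup_left.trans h.zc
  have hB : B ≤ 𝐂[z] := le_sup_right.trans h.zc
  have hf : Function.Injective (𝐂[z]).subtype := Subtype.val_injective
  have eS : (S.subgroupOf 𝐂[z]).map (𝐂[z]).subtype = S := map_subgroupOf_eq_of_le hS
  have eB : (B.subgroupOf 𝐂[z]).map (𝐂[z]).subtype = B := map_subgroupOf_eq_of_le hB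
  have h' : DC (S.subgroupOf 𝐂[z]) (B.subgroupOf 𝐂[z]) ⟨y, hS h.yS⟩ ⟨z, hS h.zS⟩ := by
    apply D3.of_map hf
    rw [eS, eB]
    exact h
  have c : 𝐨(S.subgroupOf 𝐂[z]) = n := by rw [← card_map_inj hf, eS, hn]
  obtain ⟨s, hs, hN⟩ := D3.step D2a D2b h' (fun g => Subtype.ext (mem_cent1.1 g.2))
    (fun Y _ _ S' B' y' z' lt h'' => IH _ (c ▸ lt) Y S' B' y' z' rfl h'')
  refine ⟨s.1, hs, ?_⟩
  have := (map_le_norm_iff hf).2 hN
  rw [eB] at this
  refine this.trans (le_of_eq ?_)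
  congr 2
  have e1 : (S.subgroupOf 𝐂[z] ⊓ 𝐂[(⟨y, hS h.yS⟩ : 𝐂[z])]) ^ᵍ s =
      S.subgroupOf 𝐂[z] ⊓ 𝐂[s * ⟨y, hS h.yS⟩ * s⁻¹] := by
    rw [conj_inf, cent1_conj, conj_eq_of_mem hs]
  rw [e1, map_inf_cent1 hf, eS, conj_inf, ← cent1_conj, conj_eq_of_mem (show s.1 ∈ S from hs)]
  rfl

end Cfsg.Agent.P20
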