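/-
P20, chapter R0: reduction to the case where all proper invariant subgroups of even order are
2-groups.
-/
import Cfsg.Agent.P20.Defs
import Cfsg.Agent.H8.InvNilp

set_option autoImplicit false
set_option linter.unusedSectionVars false

namespace Cfsg.Agent.P20

open Subgroup Cfsg Cfsg.Agent Cfsg.Agent.FT Cfsg.Agent.P19
open scoped commutatorElement

universe u

variable {X : Type u} [Group X] [Finite X]

/-- Thompson's normal complement theorem for an invariant Sylow subgroup. -/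
theorem r0_npc {G B Q : Subgroup X} {p q : ℕ} (hq : q.Prime) (q2 : q ≠ 2) (BG : B ≤ 𝐍(G))
    (hN : ∀ N : Subgroup X, N ≠ ⊥ → N < G → G ≤ 𝐍(N) → ¬ B ≤ 𝐍(N))
    (h : ∀ E < G, B ≤ 𝐍(E) → p ∣ 𝐨(E) → Group.IsNilpotent E)
    (hQ : IsSyl q Q G) (Q1 : Q ≠ ⊥) (BQ : B ≤ 𝐍(Q)) (hp : p ∣ 𝐨(G ⊓ 𝐍(Q))) : IsPGroup q G := by
  have := Fact.mk hq
  by_contra hK
  have h3 := (hasNPC_iff hq).2 (H5.hasNPC_subgroup_of_forall_char q2 hQ.le hQ.pgrp hQ.ndvd
    fun Z hZ hZ1 hNZ => (hasNPC_iff hq).1 (FT.hasNPC_of_isNilpotent hq (h _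
      (lt_of_le_of_ne inf_le_left fun e => hN Z hZ1 (lt_of_le_of_ne (hZ.trans hQ.le)
        fun e' => hK (e' ▸ hQ.pgrp.to_le hZ)) (inf_eq_left.1 e) (BQ.trans hNZ))
      (H1.le_normalizer_inf BG (H1.le_normalizer_normalizer (BQ.trans hNZ)))
      (hp.trans (FT.card_dvd_of_le (inf_le_inf_left _ hNZ))))))
  have hsd := h3.sdProd hq hQ
  by_cases h4 : H2.pPrimeCoreOf q G = ⊥
  · have := hsd.sup
    rw [h4, bot_sup_eq] at this
    exact hK (this ▸ hQ.pgrp)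
  · exact hN _ h4 (lt_of_le_of_ne hsd.le_left fun e => not_dvd_card_pPrimeCoreOf hq G
      (e.symm ▸ by_contra fun c => Q1 ((hQ.eq_bot_iff hq).2 c))) hsd.le_norm
      (BG.trans (H2.normalizer_le_normalizer_pPrimeCoreOf q G))

/-- A proper normal invariant subgroup of order divisible by `p`. -/
theorem r0_dvd {G B N : Subgroup X} {p : ℕ} (BG : B ≤ 𝐍(G)) (cop : 𝐨(B).Coprime 𝐨(G))
    (hs : Group.IsSolvable B) (h : ∀ E < G, B ≤ 𝐍(E) → p ∣ 𝐨(E) → Group.IsNilpotent E)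
    (h2 : N < G) (h3 : G ≤ 𝐍(N)) (h4 : B ≤ 𝐍(N)) (hp : p ∣ 𝐨(N)) : Group.IsSolvable G := by
  have := H1.normal_subgroupOf_of_le (sup_le h3 h4)
  refine H8.isSolvable_of_bar' (Y := G ⊔ B) le_sup_left (isSolvable_of_isNilpotent (h N h2 h4 hp))
    (H8.invNilp_solvable _ _ (H1.bar (G ⊔ B) N B) _ rfl (H1.bar_le_normalizer BG)
      (H1.coprime_bar cop) (H1.isSolvable_bar hs) fun H hH hAH => ?_)
  rw [← H1.bar_unbar H]
  refine H1.isNilpotent_bar (H1.unbar_le H) (h _ (lt_of_le_of_ne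
    (unbar_le_of_le_bar h2.le le_sup_left hH.le) fun e => hH.ne ?_)
    (H1.le_normalizer_unbar le_sup_right hAH)
    (hp.trans (FT.card_dvd_of_le (H1.le_unbar (h2.le.trans le_sup_left) H))))
  exact (H1.bar_unbar H).symm.trans (congrArg _ e)

/-- A normal invariant `p'`-subgroup supplemented by an invariant Sylow `p`-subgroup. -/
theorem r0_sup {G B N P : Subgroup X} {p : ℕ} (hp : p.Prime) (BG : B ≤ 𝐍(G))
    (cop : 𝐨(B).Coprime 𝐨(G)) (hs : Group.IsSolvable B) (pG : p ∣ 𝐨(G))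
    (h : ∀ E < G, B ≤ 𝐍(E) → p ∣ 𝐨(E) → Group.IsNilpotent E)
    (h3 : G ≤ 𝐍(N)) (h4 : B ≤ 𝐍(N)) (pN : ¬ p ∣ 𝐨(N)) (hP : IsSyl p P G)
    (BP : B ≤ 𝐍(P)) (e : N ⊔ P = G) : Group.IsSolvable G := by
  have sP : Group.IsSolvable P := isSolvable_of_isNilpotent (isNilpotent_of_isPGroup hp hP.pgrp)
  have NG : N ≤ G := le_sup_left.trans e.le
  have pP : p ∣ 𝐨(P) := by
    rw [hP.card_eq_pow_factorization hp]
    exact dvd_pow_self p (hp.factorization_pos_of_dvd (card_ne_zero G) pG).ne'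
  by_contra hG
  have c : 𝐨(B ⊔ P).Coprime 𝐨(N) := by
    refine Nat.Coprime.coprime_dvd_left (H1.card_sup_dvd BP)
      (Nat.Coprime.mul_left (cop.coprime_dvd_right (FT.card_dvd_of_le NG)) ?_)
    obtain ⟨k, hk⟩ := exists_card_eq_pow hp hP.pgrp
    rw [hk]
    exact ((Nat.Prime.coprime_iff_not_dvd hp).2 pN).pow_left k
  have NP : N ≤ 𝐍(P) := le_of_forall_exists_isSyl_le fun q hq _ => by
    obtain ⟨Q, hQ, -, a⟩ := exists_invariant_isSyl hq (sup_le h4 (hP.le.trans h3)) c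
      (.inl (H2.isSolvable_sup_of_le_normalizer BP hs sP)) IsPGroup.of_bot bot_le
      (norm_bot.ge.trans' le_top)
    have l : P ⊔ Q ≤ G := sup_le hP.le (hQ.le.trans NG)
    refine ⟨Q, hQ, le_sup_right.trans ((le_norm_self (P ⊔ Q)).trans
      ((hP.of_le le_sup_left l).norm_le_of_isNilpotent hp (h _ (lt_of_le_of_ne l fun e' => hG ?_)
        (H1.le_normalizer_sup BP (le_sup_left.trans a))
        (pP.trans (FT.card_dvd_of_le le_sup_left)))))⟩
    exact e' ▸ H2.isSolvable_sup_of_le_normalizer (le_sup_right.trans a) sP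
      (isSolvable_of_isNilpotent (isNilpotent_of_isPGroup hq hQ.pgrp))
  exact hG (r0_dvd BG cop hs h (lt_of_le_of_ne hP.le fun e' => hG (e' ▸ sP))
    (e.ge.trans (sup_le NP (le_norm_self P))) BP pP)

theorem r0_ind (hR : R1Stmt.{u}) (n : ℕ) : ∀ (X : Type u) [Group X] [Finite X] (G B : Subgroup X),
    𝐨(G) = n → G.Normal → G ⊔ B = ⊤ → 𝐨(B).Coprime 𝐨(G) → Group.IsSolvable B → ∀ p : ℕ, p.Prime →
    p ∣ 𝐨(G) → (∀ E < G, B ≤ 𝐍(E) → p ∣ 𝐨(E) → Group.IsNilpotent E) → Group.IsSolvable G := by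
  induction n using Nat.strong_induction_on with
  | _ n ih =>
  intro X _ _ G B hn nrm hG cop hs p hp pG h
  have BG : B ≤ 𝐍(G) := le_top.trans (normalizer_eq_top G).ge
  obtain ⟨P, hP, -, BP⟩ := exists_invariant_isSyl hp BG cop (.inl hs) IsPGroup.of_bot bot_le
    (norm_bot.ge.trans' le_top)
  have pP : p ∣ 𝐨(P) := by
    rw [hP.card_eq_pow_factorization hp]
    exact dvd_pow_self p (hp.factorization_pos_of_dvd (card_ne_zero G) pG).ne'
  by_cases hN : ∃ N : Subgroup X, N ≠ ⊥ ∧ N < G ∧ G ≤ 𝐍(N) ∧ B ≤ 𝐍(N)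
  · obtain ⟨N, h1, h2, h3, h4⟩ := hN
    by_cases pN : p ∣ 𝐨(N)
    · exact r0_dvd BG cop hs h h2 h3 h4 pN
    rcases (sup_le h2.le hP.le).eq_or_lt with e | e
    · exact r0_sup hp BG cop hs pG h h3 h4 pN hP BP e
    have := H1.normal_subgroupOf_of_le (hG.ge.trans (sup_le h3 h4))
    refine H8.isSolvable_of_bar' (Y := ⊤) le_top (isSolvable_of_isNilpotent (isNilpotent_of_le
      le_sup_left (h _ e (H1.le_normalizer_sup h4 BP)
        (pP.trans (FT.card_dvd_of_le le_sup_right)))))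
      (ih _ ?_ _ _ (H1.bar ⊤ N B) rfl (H1.bar_normal (normalizer_eq_top G).ge) ?_
        (H1.coprime_bar cop) (H1.isSolvable_bar hs) p hp ?_ fun H hH hAH pH => ?_)
    · rw [← hn]
      exact card_bar_lt le_top (by rwa [inf_eq_left.2 h2.le])
    · rw [← H1.bar_sup le_top le_top, hG, H1.bar_top]
    · rw [← H1.card_mul_relIndex h2.le] at pG
      rw [H1.card_bar le_top]
      exact (hp.dvd_mul.1 pG).resolve_left pN
    · rw [← H1.bar_unbar H] at pH ⊢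
      refine H1.isNilpotent_bar (H1.unbar_le H) (h _ (lt_of_le_of_ne
        (unbar_le_of_le_bar h2.le le_top hH.le) fun e => hH.ne ?_)
        (H1.le_normalizer_unbar le_top hAH) (pH.trans (H1.card_bar_dvd _)))
      exact (H1.bar_unbar H).symm.trans (congrArg _ e)
  push Not at hN
  by_cases p2 : p = 2
  swap
  · exact isSolvable_of_isNilpotent (isNilpotent_of_isPGroup hp (r0_npc hp p2 BG hN h hP
      (hP.ne_bot hp pG) BP (pP.trans (FT.card_dvd_of_le (le_inf hP.le (le_norm_self P))))))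
  subst p2
  refine hR X G B nrm hG cop pG (fun N a b => by_contra fun c => hN N (fun e => c (.inl e))
    (lt_of_le_of_ne b fun e => c (.inr e)) (le_top.trans (normalizer_eq_top N).ge)
    (le_top.trans (normalizer_eq_top N).ge)) fun E e1 e2 e3 => ?_
  rw [← isPi_singleton_iff Nat.prime_two]
  intro q hq qE
  by_contra q2
  obtain ⟨M, EM, hM⟩ := Finite.exists_le_maximal
    (p := fun H : Subgroup X => H < G ∧ B ≤ 𝐍(H)) ⟨e1, e2⟩
  have m2 : 2 ∣ 𝐨(M) := e3.trans (FT.card_dvd_of_le EM)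
  have hQ := isSyl_pCoreOf_of_isNilpotent hq (h M hM.1.1 hM.1.2 m2)
  have nQ := hQ.norm_le_of_isNilpotent hq (h M hM.1.1 hM.1.2 m2)
  have Q1 := hQ.ne_bot hq (qE.trans (FT.card_dvd_of_le EM))
  have l : M ≤ G ⊓ 𝐍(pCoreOf q M) := le_inf hM.1.1.le ((le_norm_self M).trans nQ)
  have e : G ⊓ 𝐍(pCoreOf q M) = M := le_antisymm (hM.2 ⟨lt_of_le_of_ne inf_le_left fun e =>
    hN _ Q1 (hQ.le.trans_lt hM.1.1) (inf_eq_left.1 e) (hM.1.2.trans nQ),
    H1.le_normalizer_inf BG (H1.le_normalizer_normalizer (hM.1.2.trans nQ))⟩ l) l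
  exact q2 (eq_of_prime_dvd_card_of_isPGroup hq Nat.prime_two (r0_npc hq q2 BG hN h
    (IsSyl.of_norm hq (e.symm ▸ hQ)) Q1 (hM.1.2.trans nQ) (e.symm ▸ m2)) pG).symm

theorem intStmt (hR : R1Stmt.{u}) : IntStmt.{u} := by
  intro X _ _ G B nrm hG cop p hp pG h
  rcases Nat.even_or_odd 𝐨(G) with e | e
  · exact r0_ind hR _ X G B rfl nrm hG cop
      (feit_thompson B (Nat.coprime_two_right.1 (cop.coprime_dvd_right e.two_dvd))) p hp pG h
  · exact feit_thompson G e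

/-- The theorem for an action. -/
theorem app {A G : Type*} [Group A] [Group G] [Finite A] [Finite G] (φ : A →* MulAut G)
    (hI : ∀ (K B : Subgroup (G ⋊[φ] A)), K.Normal → K ⊔ B = ⊤ → 𝐨(B).Coprime 𝐨(K) → ∀ p : ℕ,
      p.Prime → p ∣ 𝐨(K) → (∀ E < K, B ≤ 𝐍(E) → p ∣ 𝐨(E) → Group.IsNilpotent E) →
      Group.IsSolvable K)
    (hcop : (Nat.card A).Coprime (Nat.card G)) (p : ℕ) (hp : p.Prime) (hpG : p ∣ Nat.card G)
    (hmax : ∀ H : Subgroup G, H ≠ ⊤ → (∀ a : A, ∀ x ∈ H, φ a x ∈ H) →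
      (∀ K : Subgroup G, H < K → (∀ a : A, ∀ x ∈ K, φ a x ∈ K) → K = ⊤) → p ∣ Nat.card H →
      Group.IsNilpotent H) : Group.IsSolvable G := by
  have h0 : ∀ H : Subgroup G, H ≠ ⊤ → (∀ a : A, ∀ x ∈ H, φ a x ∈ H) → p ∣ 𝐨(H) →
      Group.IsNilpotent H := by
    intro H h1 h2 h3
    obtain ⟨M, hHM, hM⟩ := Finite.exists_le_maximal
      (p := fun H : Subgroup G => H ≠ ⊤ ∧ ∀ a : A, ∀ x ∈ H, φ a x ∈ H) ⟨h1, h2⟩
    exact isNilpotent_of_le hHM (hmax M hM.1.1 hM.1.2 (fun K hK hK' =>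
      by_contra fun e => hK.not_ge (hM.2 ⟨e, hK'⟩ hK.le)) (h3.trans (FT.card_dvd_of_le hHM)))
  have := hI (H1.sdL φ ⊤) (H1.sdR φ ⊤) inferInstance (by rw [sup_comm, H1.sdR_sup_sdL_top])
    (H1.coprime_sd hcop) p hp (by rwa [H1.card_sdL_top]) fun H h1 h2 h3 => by
      obtain ⟨H, rfl⟩ := H1.exists_eq_sdL h1.le
      exact (isNilpotent_map_iff SemidirectProduct.inl_injective).2
        (h0 H (fun e => h1.ne (by rw [e])) (H1.sdR_top_le_normalizer_iff.1 h2)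
          (by rwa [H1.card_sdL] at h3))
  have := (isSolvable_map_iff SemidirectProduct.inl_injective).1 this
  exact L.isSolvable_of_mulEquiv topEquiv

end Cfsg.Agent.P20
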