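/-
P20, chapter R1: all proper invariant subgroups of even order are 2-groups.
-/
import Cfsg.Agent.P20.Defs

set_option autoImplicit false
set_option linter.unusedSectionVars false

namespace Cfsg.Agent.P20

open Subgroup Cfsg Cfsg.Agent Cfsg.Agent.FT Cfsg.Agent.P19 Cfsg.Agent.P14
open Cfsg.Agent.H7.SC
open scoped commutatorElement

universe u

variable {X : Type u} [Group X] [Finite X]

theorem scl_of_wc {T : Subgroup X} (syl : IsSyl 2 T ⊤) (wcl : WC T) : SCl ⊤ T (oz T) :=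
  fun z hz g _ e => by
  have h1 : T ^ᵍ g ≤ 𝐂[g * z * g⁻¹] := by
    rw [cent1_conj]; exact conj_mono (G2.Hy.tc hz) g
  obtain ⟨c, hc, h2⟩ := ((syl.conj_of_mem_norm (le_norm_self ⊤ (mem_top g))).of_le h1
    le_top).exists_conj_le Nat.prime_two (syl.pgrp.to_le (oz_le T))
    ((cent_comm.1 (le_cent_oz T)).trans (cent_le_cent1 e))
  have h3 := wcl (g⁻¹ * c) (by rw [← conj_conj]; exact conj_le_iff.2 (by rwa [inv_inv]))
  have h4 := conj_mem_conj hz (g⁻¹ * c)⁻¹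
  rw [← conj_eq_iff.1 h3] at h4
  convert h4 using 1
  nth_rw 1 [← mem_cent1_iff_conj.1 (inv_mem hc)]
  group

theorem ti {G T B : Subgroup X} (hT : IsSyl 2 T G) (hB : B ≤ 𝐍(T))
    (h : ∀ D ≤ T, D ≠ ⊥ → B ≤ 𝐍(D) → IsPGroup 2 (G ⊓ 𝐍(D) : Subgroup X)) (hG : B ≤ 𝐍(G)) :
    ∀ D ≤ T, D ≠ ⊥ → B ≤ 𝐍(D) → G ⊓ 𝐍(D) ≤ T := by
  intro D
  induction D using WellFoundedGT.induction with
  | ind D ih =>
  intro h1 h2 h3
  have h4 := h D h1 h2 h3
  rcases h1.eq_or_lt with rfl | h5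
  · exact (hT.eq_of_le Nat.prime_two (le_inf hT.le (le_norm_self _)) inf_le_left h4).le
  by_contra h6
  have bE : B ≤ 𝐍(G ⊓ 𝐍(D)) := H1.le_normalizer_inf hG (H1.le_normalizer_normalizer h3)
  have h7 : D < T ⊓ (G ⊓ 𝐍(D)) := by
    obtain ⟨x, x1, x2, x3⟩ := H1.exists_mem_normalizer_of_lt
      (isNilpotent_of_isPGroup Nat.prime_two hT.pgrp) h5
    exact lt_of_le_of_ne (le_inf h1 (le_inf (h1.trans hT.le) (le_norm_self _)))
      fun e => x3 (e.ge ⟨x1, hT.le x1, x2⟩)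
  obtain ⟨x, x1, x2, x3⟩ := H1.exists_mem_normalizer_of_lt
    (isNilpotent_of_isPGroup Nat.prime_two h4)
    (lt_of_le_of_ne (inf_le_right : T ⊓ (G ⊓ 𝐍(D)) ≤ _) fun e => h6 (e.ge.trans inf_le_left))
  exact x3 ⟨ih _ h7 inf_le_left (fun e => not_lt_bot (e ▸ h7)) (H1.le_normalizer_inf hB bE)
    ⟨x1.1, x2⟩, x1⟩

theorem r1Stmt (hC : CoreStmt.{u}) : R1Stmt.{u} := by
  intro X _ _ G B hn hG cop ev sim h
  have : Fact (Nat.Prime 2) := ⟨Nat.prime_two⟩
  have odd : Odd 𝐨(B) := Nat.coprime_two_right.1 (cop.coprime_dvd_right ev)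
  have BG : B ≤ 𝐍(G) := le_top.trans (normalizer_eq_top G).ge
  have nrm : ∀ K : Subgroup X, G ≤ 𝐍(K) → B ≤ 𝐍(K) → K.Normal := fun K a b =>
    normal_iff_top_le.2 (hG.ge.trans (sup_le a b))
  obtain ⟨T, t1, t2, t3, t4⟩ := H1.exists_invariant_sylow BG cop (.inl (feit_thompson B odd)) 2
  have hT : IsSyl 2 T G := ⟨t1, t2, t3⟩
  have hT' : IsSyl 2 T ⊤ := hT.trans Nat.prime_two le_top fun e => by
    rw [← hG, relIndex_sup_of_norm BG] at e
    exact (Nat.not_even_iff_odd.2 odd) (even_iff_two_dvd.2 (e.trans (relIndex_dvd_card _ _)))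
  by_cases g2 : IsPGroup 2 G
  · exact H1.isSolvable_of_isPGroup g2
  have u : Uq G T B := ⟨hn, t2, t1, t4, odd, ti hT t4 (fun D h1 h2 h3 =>
    h _ (lt_of_le_of_ne inf_le_left fun e => g2 (((sim D (nrm D (e.ge.trans inf_le_right) h3)
      (h1.trans t1)).resolve_left h2) ▸ t2.to_le h1))
      (H1.le_normalizer_inf BG (H1.le_normalizer_normalizer h3))
      ((two_dvd_card (t2.to_le h1) h2).trans
        (FT.card_dvd_of_le (le_inf (h1.trans t1) (le_norm_self _))))) BG⟩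
  have hZ := u.U _ (oz_le T) (oz_ne_bot t2 (hT.ne_bot Nat.prime_two ev))
    (t4.trans (norm_le_norm_oz T))
  have c := ((scl_of_wc hT' (hC X G T B u hG hT')).mono le_top).ctrl hT (oz_le T) G2.Hy.cc
  have o : od G = ⊥ := (sim _ (nrm _ (le_norm_od G)
    (BG.trans (H2.normalizer_le_normalizer_pPrimeCoreOf 2 _))) (od_le G)).resolve_right fun e =>
      by have := od_cop G; rw [e] at this; exact absurd (this.symm.eq_one_of_dvd ev) (by decide)
  refine absurd (t2.to_le (le_trans (le_inf le_rfl ((cent_comm.1 fun z hz => mem_cent.2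
    fun g hg => ?_).trans (cent_le_norm _))) hZ)) g2
  have := G2.zstar_rel hT (oz_le T hz) ((elemAb_oz T).2 z hz) (fun g hg e => by
    obtain ⟨m, hm, e'⟩ := c.elt (oz_le T hz) hg e
    rw [e', mem_cent1_iff_conj.1 (G2.Hy.tc hz (hZ hm))]) hg
  rw [o, mem_bot, commutatorElement_eq_one_iff_mul_comm] at this
  exact this.symm

end Cfsg.Agent.P20
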